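import Cfsg.Agent.SL3Pres.Main
import Cfsg.Agent.SL2Pres.Span
set_option autoImplicit false

/-!
`SL₃(F)` from four generators and fourteen relations.
-/

namespace CfsgLib.SL3Pres

open CfsgLib.SL2Pres.Short (commute_conj exists_span)

variable {F : Type*} [Field F]

/-- The generators. -/
abbrev gU : FreeGroup (Fin 4) := FreeGroup.of 0
/-- The generators. -/
abbrev gH : FreeGroup (Fin 4) := FreeGroup.of 1
/-- The generators. -/
abbrev gT : FreeGroup (Fin 4) := FreeGroup.of 2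
/-- The generators. -/
abbrev gC : FreeGroup (Fin 4) := FreeGroup.of 3
/-- The second torus element. -/
abbrev gB : FreeGroup (Fin 4) := gC * gH * gC⁻¹

/-- The four generators in `SL₃(F)`. -/
def gens (ω : Fˣ) : Fin 4 → Matrix.SpecialLinearGroup (Fin 3) F := ![e01 1, mH ω, mT F, mC F]

/-- Evaluation of words. -/
noncomputable def ev (ω : Fˣ) : FreeGroup (Fin 4) →* Matrix.SpecialLinearGroup (Fin 3) F := FreeGroup.lift (gens ω)

@[simp] theorem ev_U (ω : Fˣ) : ev ω gU = e01 1 := FreeGroup.lift_apply_of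
@[simp] theorem ev_H (ω : Fˣ) : ev ω gH = mH ω := FreeGroup.lift_apply_of
@[simp] theorem ev_T (ω : Fˣ) : ev ω gT = mT F := FreeGroup.lift_apply_of
@[simp] theorem ev_C (ω : Fˣ) : ev ω gC = mC F := FreeGroup.lift_apply_of

theorem ev_B (ω : Fˣ) : ev ω gB = mB ω := by rw [map_mul, map_mul, map_inv, ev_C, ev_H, mB_eq]

theorem ev_conj_pow (ω : Fˣ) (k : ℕ) :
    ev ω (gB ^ k * gU * (gB ^ k)⁻¹) = e01 (((ω : F)⁻¹) ^ k) := by
  rw [map_mul, map_mul, map_inv, map_pow, ev_B, ev_U, conjB_pow, mul_one]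

/-- The words for the root subgroup. -/
def Uw (n : ℕ) : Subgroup (FreeGroup (Fin 4)) :=
  Subgroup.closure (Set.range fun i : Fin n => gB ^ (i : ℕ) * gU * (gB ^ (i : ℕ))⁻¹)

theorem exists_word (ω : Fˣ) (n : ℕ)
    (hspan : AddSubgroup.closure (Set.range fun i : Fin n => ((ω : F)⁻¹) ^ (i : ℕ)) = ⊤) (v : F) :
    ∃ W ∈ Uw n, ev ω W = e01 v := by
  have hv : v ∈ AddSubgroup.closure (Set.range fun i : Fin n => ((ω : F)⁻¹) ^ (i : ℕ)) := by rw [hspan]; trivial
  induction hv using AddSubgroup.closure_induction with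
  | mem y hy =>
    obtain ⟨i, rfl⟩ := hy
    exact ⟨_, Subgroup.subset_closure ⟨i, rfl⟩, ev_conj_pow ω i⟩
  | zero => exact ⟨1, one_mem _, by rw [map_one, e01_zero]⟩
  | add a b _ _ ha hb =>
    obtain ⟨A, hA, hA'⟩ := ha
    obtain ⟨B, hB, hB'⟩ := hb
    exact ⟨A * B, mul_mem hA hB, by rw [map_mul, hA', hB', e01_add]⟩
  | neg a _ ha =>
    obtain ⟨A, hA, hA'⟩ := ha
    exact ⟨A⁻¹, inv_mem hA, by rw [map_inv, hA', e01_inv]⟩

/-- The word of `diag(ω, ω⁻¹, 1)`. -/
def hWord (A B : FreeGroup (Fin 4)) : FreeGroup (Fin 4) := A * (gT * B * gT⁻¹) * A * gT⁻¹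

/-- The root `02` word. -/
def w02 (N : FreeGroup (Fin 4)) : FreeGroup (Fin 4) := gC * gC * (gT * N * gT⁻¹) * (gC * gC)⁻¹
/-- The root `21` word. -/
def w21 (N : FreeGroup (Fin 4)) : FreeGroup (Fin 4) := gC * (gT * N * gT⁻¹) * gC⁻¹
/-- The root `12` word. -/
def w12 (P : FreeGroup (Fin 4)) : FreeGroup (Fin 4) := gC * P * gC⁻¹

/-- The three commutator relations of a representative. -/
def commRels (P N : FreeGroup (Fin 4)) : List (FreeGroup (Fin 4)) :=
  [gU * w02 N * (w02 N * gU)⁻¹, gU * w21 N * (w21 N * gU)⁻¹, gU * w12 P * gU⁻¹ * (w12 P)⁻¹ * (w02 N)⁻¹]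

theorem ev_commRels (ω : Fˣ) (e : F) {P N : FreeGroup (Fin 4)} (hP : ev ω P = e01 e) (hN : ev ω N = e01 (-e)) :
    ∀ r ∈ commRels P N, ev ω r = 1 := by
  have h21 : ev ω (w21 N) = tv (show (2 : Fin 3) ≠ 1 by decide) e := by
    simp only [w21, map_mul, map_inv, ev_C, ev_T, hN, conjT, neg_neg]
    exact conjC h01.symm (by decide) e
  have h02 : ev ω (w02 N) = tv (show (0 : Fin 3) ≠ 2 by decide) e := by
    have : w02 N = gC * w21 N * gC⁻¹ := by rw [w02, w21]; simp [mul_assoc]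
    rw [this, map_mul, map_mul, map_inv, ev_C, h21]
    exact conjC (show (2 : Fin 3) ≠ 1 by decide) (by decide) e
  have h12 : ev ω (w12 P) = tv (show (1 : Fin 3) ≠ 2 by decide) e := by
    simp only [w12, map_mul, map_inv, ev_C, hP, e01_eq]
    exact conjC h01 (by decide) e
  intro r hr
  simp only [commRels, List.mem_cons, List.not_mem_nil, or_false] at hr
  rcases hr with rfl | rfl | rfl
  · rw [map_mul, map_inv, map_mul, map_mul, ev_U, h02, mul_inv_eq_one]
    exact (shareSource 1 e).eq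
  · rw [map_mul, map_inv, map_mul, map_mul, ev_U, h21, mul_inv_eq_one]
    exact (shareTarget 1 e).eq
  · simp only [map_mul, map_inv, ev_U, h02, h12]
    rw [triple, one_mul, mul_inv_cancel]

/-- The relations in a group force an isomorphism with `SL₃(F)`. -/
theorem bijective_of_rels [Fintype F] (p : ℕ) [Fact p.Prime] (ω : Fˣ) (hω : ∀ z : Fˣ, z ∈ Subgroup.zpowers ω)
    (m : ℕ) (hm : (ω : F) ^ m = -1) (n : ℕ) (hn : 0 < n) (hcard : p ^ n ≤ Fintype.card F)
    (hspan : AddSubgroup.closure (Set.range fun i : Fin n => ((ω : F)⁻¹) ^ (i : ℕ)) = ⊤)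
    (Es : Set F) (hEs : AddSubgroup.closure {y : F | ∃ z e, e ∈ Es ∧ y = z ^ 3 * e} = ⊤)
    {G : Type*} [Group G] (f : FreeGroup (Fin 4) →* G) (hf : Function.Surjective f)
    (π : G →* Matrix.SpecialLinearGroup (Fin 3) F) (hπf : ∀ a, π (f a) = ev ω a)
    {Wr Wh A B : FreeGroup (Fin 4)} (hWr : Wr ∈ Uw n) (hWh : Wh ∈ Uw n) (hA : A ∈ Uw n) (hB : B ∈ Uw n)
    (hA' : ev ω A = e01 (ω : F)) (hB' : ev ω B = e01 ((ω : F)⁻¹))
    (r1 : f gU ^ p = 1) (hcomm : ∀ i, i < n → Commute (f gU) (f gB ^ i * f gU * (f gB ^ i)⁻¹))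
    (rrec : f gB ^ n * f gU * (f gB ^ n)⁻¹ = f Wr) (rh : f gH * f gU * (f gH)⁻¹ = f Wh)
    (rhb : Commute (f gH) (f gB)) (rbraid : f gT = f gU * (f gT * f gU * (f gT)⁻¹) * f gU)
    (rdef : f gH = f (hWord A B)) (rc : f gC * f gC * f gC = 1)
    (rR : f gT * f gC * (f gT)⁻¹ = f gC * f gC * f gB ^ m)
    (r14 : (f gT)⁻¹ * f gB * f gT = f gH * f gB)
    (rcr : ∀ e ∈ Es, ∃ P N, P ∈ Uw n ∧ N ∈ Uw n ∧ ev ω P = e01 e ∧ ev ω N = e01 (-e) ∧
      ∀ r ∈ commRels P N, f r = 1) :
    Function.Bijective π := by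
  have hω0 : (ω : F) ≠ 0 := ω.ne_zero
  set u := f gU with hu
  set h := f gH with hh
  set t := f gT with ht
  set c := f gC with hc
  have hbc : f gB = c * h * c⁻¹ := by rw [map_mul, map_mul, map_inv]
  set b := f gB with hb
  have hUw : ∀ W ∈ Uw n, f W ∈ Subgroup.closure (Set.range fun i : Fin n => b ^ (i : ℕ) * u * (b ^ (i : ℕ))⁻¹) := by
    intro W hW
    have hle : Uw n ≤ (Subgroup.closure (Set.range fun i : Fin n => b ^ (i : ℕ) * u * (b ^ (i : ℕ))⁻¹)).comap f := by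
      refine (Subgroup.closure_le _).mpr ?_
      rintro _ ⟨i, rfl⟩
      refine Subgroup.subset_closure ⟨i, ?_⟩
      simp only [hb, hu, map_mul, map_inv, map_pow]
    exact hle hW
  have hπu : π u = rootHom F (.ofAdd 1) := by rw [hu, hπf, ev_U, rootHom_apply]
  have hπh : π h = mH ω := by rw [hh, hπf, ev_H]
  have hπt : π t = mT F := by rw [ht, hπf, ev_T]
  have hπc : π c = mC F := by rw [hc, hπf, ev_C]
  have hπb : π b = mB ω := by rw [hb, hπf, ev_B]
  have hπb' : ∀ v, π b * rootHom F (.ofAdd v) * (π b)⁻¹ = rootHom F (.ofAdd ((ω : F)⁻¹ * v)) := fun v => by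
    rw [hπb, rootHom_apply, rootHom_apply, conjB]
  have hrec := hUw _ hWr
  rw [← rrec] at hrec
  obtain ⟨x, hadd, hπx, hx1, hxU, huniq⟩ :=
    exists_x (rootHom F) rootHom_injective π u b _ n r1 hπu hπb' hcomm hrec hspan hn hcard
  have hbU : b * u * b⁻¹ ∈ Subgroup.closure (Set.range fun i : Fin n => b ^ (i : ℕ) * u * (b ^ (i : ℕ))⁻¹) := by
    rcases Nat.lt_or_ge 1 n with h1 | h1
    · exact Subgroup.subset_closure ⟨⟨1, h1⟩, by simp⟩
    · obtain rfl : n = 1 := by omega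
      simpa using hrec
  have hbx : ∀ v, b * x v * b⁻¹ = x ((ω : F)⁻¹ * v) :=
    conj_x (rootHom F) π u b n x hπx hxU huniq hrec b (Commute.refl b) _ hbU hπb'
  have hhx : ∀ v, h * x v * h⁻¹ = x ((ω : F) ^ 2 * v) :=
    conj_x (rootHom F) π u b n x hπx hxU huniq hrec h rhb _ (by rw [rh]; exact hUw _ hWh)
      (fun v => by rw [hπh, rootHom_apply, rootHom_apply, conjH])
  have ea : f A = x (ω : F) := huniq _ (hUw _ hA) _ (by rw [hπf, hA', rootHom_apply])
  have eb : f B = x ((ω : F)⁻¹) := huniq _ (hUw _ hB) _ (by rw [hπf, hB', rootHom_apply])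
  have hbraid : t = x 1 * Y x t (-1) * x 1 := by rw [Y, neg_neg, hx1]; exact rbraid
  have hhdef : h = x (ω : F) * Y x t (-(ω : F)⁻¹) * x (ω : F) * t⁻¹ := by
    rw [Y, neg_neg, ← ea, ← eb, rdef]
    simp [hWord, ht]
  -- the square of the Weyl element
  have hbi : ∀ v, b⁻¹ * x v * b = x ((ω : F) * v) := fun v => by
    have e := hbx ((ω : F) * v)
    rw [← mul_assoc, inv_mul_cancel₀ hω0, one_mul] at e
    rw [← e]; group
  have hhi : ∀ v, h⁻¹ * x v * h = x (((ω : F) ^ 2)⁻¹ * v) := fun v => by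
    have e := hhx (((ω : F) ^ 2)⁻¹ * v)
    rw [← mul_assoc, mul_inv_cancel₀ (pow_ne_zero 2 hω0), one_mul] at e
    rw [← e]; group
  have hyi : ∀ v, b⁻¹ * Y x t v * b = Y x t ((ω : F)⁻¹ * v) := fun v => by
    have e : b⁻¹ * t = t * (h * b)⁻¹ := by rw [← r14]; group
    calc b⁻¹ * Y x t v * b = (b⁻¹ * t) * x (-v) * (b⁻¹ * t)⁻¹ := by rw [Y]; group
      _ = t * (b⁻¹ * (h⁻¹ * x (-v) * h) * b) * t⁻¹ := by rw [e]; group
      _ = _ := by
        rw [hhi, hbi, Y]
        congr 2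
        field_simp
  have hw : h * t = b⁻¹ * t * b := by
    have e : b⁻¹ * t * b = x (ω : F) * Y x t (-(ω : F)⁻¹) * x (ω : F) := by
      calc b⁻¹ * t * b = b⁻¹ * (x 1 * Y x t (-1) * x 1) * b := by rw [← hbraid]
        _ = (b⁻¹ * x 1 * b) * (b⁻¹ * Y x t (-1) * b) * (b⁻¹ * x 1 * b) := by group
        _ = _ := by rw [hbi, hyi, mul_one, mul_neg, mul_one]
    rw [e]
    calc h * t = x (ω : F) * Y x t (-(ω : F)⁻¹) * x (ω : F) * t⁻¹ * t := by rw [← hhdef]
      _ = _ := inv_mul_cancel_right _ _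
  have htb : t * b * t⁻¹ = t⁻¹ * b * t := by
    rw [r14, rhb.eq]
    calc t * b * t⁻¹ = b * (b⁻¹ * t * b) * t⁻¹ := by group
      _ = b * h := by rw [← hw]; group
  have httb : Commute (t * t) b := by
    show t * t * b = b * (t * t)
    calc t * t * b = t * (t * b * t⁻¹) * t := by group
      _ = t * (t⁻¹ * b * t) * t := by rw [htb]
      _ = _ := by group
  have httu : Commute (t * t) u := by
    have e : u * t = t * u⁻¹ * (t * u⁻¹) := by
      have e0 : t * u⁻¹ = u * (t * u * t⁻¹) := by rw [mul_inv_eq_iff_eq_mul]; exact rbraid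
      calc u * t = u * (t * u * t⁻¹) * (t * u⁻¹) := by group
        _ = _ := by rw [← e0]
    have e3 : t * t = t * u⁻¹ * (t * u⁻¹) * (t * u⁻¹) := by
      calc t * t = t * u⁻¹ * (u * t) := by group
        _ = _ := by rw [e]; group
    have e4 : Commute (t * t) (t * u⁻¹) := by
      rw [e3]
      exact (((Commute.refl _).mul_left (Commute.refl _)).mul_left (Commute.refl _))
    have e5 : u = (t * u⁻¹)⁻¹ * t := by group
    rw [e5]
    exact e4.inv_right.mul_right ((Commute.refl t).mul_left (Commute.refl t))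
  have htx : ∀ v, t * t * x v * (t * t)⁻¹ = x v := fun v => by
    have := conj_x (rootHom F) π u b n x hπx hxU huniq hrec (t * t) httb 1
      (by rw [httu.eq, mul_inv_cancel_right]; exact Subgroup.subset_closure ⟨⟨0, hn⟩, by simp⟩)
      (fun v => by rw [map_mul, hπt, rootHom_apply, conjTT, one_mul, rootHom_apply]) v
    rwa [one_mul] at this
  refine bijective_of_data π h t c x ω hω m hm hadd (fun v => by rw [hπx, rootHom_apply]) hπt hπc ?_ hhx
    (by rw [← hbc]; exact hbx) (by rw [← hbc]; exact rhb) htx (by rw [← hbc]; exact htb) hbraid hhdef rc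
    (by rw [← hbc]; exact rR) (by rw [← hbc]; exact r14) Es hEs ?_ ?_ ?_
  · have e : (⊤ : Subgroup G) = Subgroup.map f ⊤ := by
      rw [← MonoidHom.range_eq_map, MonoidHom.range_eq_top.mpr hf]
    rw [e, ← FreeGroup.closure_range_of, MonoidHom.map_closure, hx1, ← Set.range_comp]
    congr 1
    ext z
    simp [Fin.exists_fin_succ, hu, hh, ht, hc, eq_comm]
  all_goals
    intro e he
    obtain ⟨P, N, hP, hN, hP', hN', hr⟩ := rcr e he
    have eP : f P = x e := huniq _ (hUw _ hP) _ (by rw [hπf, hP', rootHom_apply])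
    have eN : f N = x (-e) := huniq _ (hUw _ hN) _ (by rw [hπf, hN', rootHom_apply])
    have r1' := hr (gU * w02 N * (w02 N * gU)⁻¹) (by simp [commRels])
    have r2' := hr (gU * w21 N * (w21 N * gU)⁻¹) (by simp [commRels])
    have r3' := hr (gU * w12 P * gU⁻¹ * (w12 P)⁻¹ * (w02 N)⁻¹) (by simp [commRels])
    simp only [map_mul, map_inv, mul_inv_eq_one, w02, w21, w12, eP, eN, ← hu, ← hc, ← ht] at r1' r2' r3'
    rw [hx1]
    simp only [X02, X21, X12, Y]
    first
      | exact r1'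
      | exact r2'
      | exact r3'

/-- A list of relations with the derived facts gives a presentation. -/
theorem presentation_of_list (ω : Fˣ) (L : List (FreeGroup (Fin 4))) (hL : L.length ≤ 14) (hev : ∀ r ∈ L, ev ω r = 1)
    (h : ∀ {G : Type} [Group G] (f : FreeGroup (Fin 4) →* G), Function.Surjective f →
      ∀ π : G →* Matrix.SpecialLinearGroup (Fin 3) F, (∀ a, π (f a) = ev ω a) → (∀ r ∈ L, f r = 1) →
        Function.Bijective π) :
    ∃ rels : Finset (FreeGroup (Fin 4)), rels.card ≤ 14 ∧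
      Nonempty (PresentedGroup (↑rels : Set (FreeGroup (Fin 4))) ≃* Matrix.SpecialLinearGroup (Fin 3) F) := by
  classical
  refine ⟨L.toFinset, (List.toFinset_card_le _).trans hL, ?_⟩
  let π : PresentedGroup (↑L.toFinset : Set (FreeGroup (Fin 4))) →* Matrix.SpecialLinearGroup (Fin 3) F :=
    PresentedGroup.toGroup (f := gens ω) (fun r hr => hev r (by simpa using hr))
  exact ⟨MulEquiv.ofBijective π (h (PresentedGroup.mk _) (PresentedGroup.mk_surjective _) π (fun a => rfl)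
    (fun r hr => PresentedGroup.one_of_mem (by simpa using hr)))⟩

theorem ev_comm_B (ω : Fˣ) : ev ω (gU * (gB * gU * gB⁻¹) * gU⁻¹ * (gB * gU * gB⁻¹)⁻¹) = 1 := by
  have e := ev_conj_pow ω 1
  simp only [pow_one] at e
  simp only [map_mul, map_inv] at e ⊢
  rw [e, ev_U, mul_inv_eq_one, mul_inv_eq_iff_eq_mul, ← e01_add, ← e01_add, add_comm]

/-- The relations common to both lists. -/
def baseRels (m n : ℕ) (Wr Wh A B : FreeGroup (Fin 4)) : List (FreeGroup (Fin 4)) :=
  [gB ^ n * gU * (gB ^ n)⁻¹ * Wr⁻¹, gH * gU * gH⁻¹ * Wh⁻¹, gH * gB * (gB * gH)⁻¹,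
    gT * (gU * (gT * gU * gT⁻¹) * gU)⁻¹, gH * (hWord A B)⁻¹, gT * gC * gT⁻¹ * (gC * gC * gB ^ m)⁻¹,
    gT⁻¹ * gB * gT * (gH * gB)⁻¹]

theorem ev_baseRels (ω : Fˣ) {m : ℕ} (hm : (ω : F) ^ m = -1) (n : ℕ) {Wr Wh A B : FreeGroup (Fin 4)}
    (hWr : ev ω Wr = e01 (((ω : F)⁻¹) ^ n)) (hWh : ev ω Wh = e01 ((ω : F) ^ 2)) (hA : ev ω A = e01 (ω : F))
    (hB : ev ω B = e01 ((ω : F)⁻¹)) : ∀ r ∈ baseRels m n Wr Wh A B, ev ω r = 1 := by
  intro r hr
  simp only [baseRels, List.mem_cons, List.not_mem_nil, or_false] at hr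
  rcases hr with rfl | rfl | rfl | rfl | rfl | rfl | rfl
  · rw [map_mul, map_inv, ev_conj_pow, hWr, mul_inv_cancel]
  · simp only [map_mul, map_inv, ev_H, ev_U, hWh, conjH, mul_one, mul_inv_cancel]
  · rw [map_mul, map_inv, map_mul (ev ω) gH gB, map_mul (ev ω) gB gH, ev_B, ev_H, hB_comm, mul_inv_cancel]
  · simp only [map_mul, map_inv, ev_T, ev_U, braid, mul_inv_cancel]
  · simp only [hWord, map_mul, map_inv, ev_T, ev_H, hA, hB, hdef, mul_inv_cancel]
  · rw [map_mul, map_inv, map_mul (ev ω) (gT * gC), map_mul (ev ω) gT, map_inv, map_mul (ev ω) (gC * gC),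
      map_mul (ev ω) gC, map_pow, ev_B, ev_T, ev_C, conjT_C ω m hm, mul_inv_cancel]
  · rw [map_mul, map_inv, map_mul (ev ω) (gT⁻¹ * gB), map_mul (ev ω) gT⁻¹, map_mul (ev ω) gH, map_inv, ev_B, ev_T,
      ev_H, conjT_B, mul_inv_cancel]

theorem facts_of_baseRels {G : Type*} [Group G] (f : FreeGroup (Fin 4) →* G) {m n : ℕ}
    {Wr Wh A B : FreeGroup (Fin 4)} (hf : ∀ r ∈ baseRels m n Wr Wh A B, f r = 1) :
    f gB ^ n * f gU * (f gB ^ n)⁻¹ = f Wr ∧ f gH * f gU * (f gH)⁻¹ = f Wh ∧ Commute (f gH) (f gB) ∧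
      f gT = f gU * (f gT * f gU * (f gT)⁻¹) * f gU ∧ f gH = f (hWord A B) ∧
      f gT * f gC * (f gT)⁻¹ = f gC * f gC * f gB ^ m ∧ (f gT)⁻¹ * f gB * f gT = f gH * f gB := by
  have heq : ∀ a b : FreeGroup (Fin 4), a * b⁻¹ ∈ baseRels m n Wr Wh A B → f a = f b := fun a b h => by
    have := hf _ h
    rwa [map_mul, map_inv, mul_inv_eq_one] at this
  refine ⟨?_, ?_, ?_, ?_, heq gH (hWord A B) (by simp [baseRels]), ?_, ?_⟩
  · have := heq (gB ^ n * gU * (gB ^ n)⁻¹) Wr (by simp [baseRels])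
    rwa [map_mul, map_mul, map_inv, map_pow] at this
  · have := heq (gH * gU * gH⁻¹) Wh (by simp [baseRels])
    rwa [map_mul, map_mul, map_inv] at this
  · have := heq (gH * gB) (gB * gH) (by simp [baseRels])
    rwa [map_mul, map_mul (f) gB gH] at this
  · have := heq gT (gU * (gT * gU * gT⁻¹) * gU) (by simp [baseRels])
    rwa [map_mul, map_mul, map_mul, map_mul, map_inv] at this
  · have := heq (gT * gC * gT⁻¹) (gC * gC * gB ^ m) (by simp [baseRels])
    rwa [map_mul, map_mul, map_inv, map_mul f (gC * gC), map_mul f gC, map_pow] at this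
  · have := heq (gT⁻¹ * gB * gT) (gH * gB) (by simp [baseRels])
    rwa [map_mul, map_mul f gT⁻¹, map_inv, map_mul f gH] at this

theorem exists_log [Fintype F] (ω : Fˣ) (hω : ∀ z : Fˣ, z ∈ Subgroup.zpowers ω) (z : F) (hz : z ≠ 0) :
    ∃ k : ℕ, (ω : F) ^ k = z := by
  classical
  obtain ⟨k, hk⟩ := mem_zpowers_iff_mem_range_orderOf.mp (hω (Units.mk0 z hz)) |> Finset.mem_image.mp
  exact ⟨k, by rw [← Units.val_pow_eq_pow_val, hk.2]; rfl⟩

theorem closure_inv_eq_top [Fintype F] (ω : Fˣ) (hω : ∀ z : Fˣ, z ∈ Subgroup.zpowers ω) :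
    Subring.closure ({(ω : F)⁻¹} : Set F) = ⊤ := by
  refine eq_top_iff.mpr fun z _ => ?_
  rcases eq_or_ne z 0 with rfl | hz
  · exact zero_mem _
  · obtain ⟨k, hk⟩ := exists_log ω hω z⁻¹ (inv_ne_zero hz)
    rw [show z = ((ω : F)⁻¹) ^ k by rw [inv_pow, hk, inv_inv]]
    exact pow_mem (Subring.subset_closure (Set.mem_singleton _)) k

/-- Cubes span the field, unless it has four elements. -/
theorem cubes_span [Fintype F] (h4 : Fintype.card F ≠ 4) (ω : Fˣ) (hω : ∀ z : Fˣ, z ∈ Subgroup.zpowers ω) :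
    AddSubgroup.closure {y : F | ∃ z e, e ∈ ({1} : Set F) ∧ y = z ^ 3 * e} = ⊤ := by
  classical
  have hset : {y : F | ∃ z e, e ∈ ({1} : Set F) ∧ y = z ^ 3 * e} = Set.range fun z : F => z ^ 3 := by
    ext y; simp [eq_comm]
  rw [hset]
  let S : Submonoid F :=
    { carrier := Set.range fun z : F => z ^ 3
      mul_mem' := by rintro _ _ ⟨a, rfl⟩ ⟨b, rfl⟩; exact ⟨a * b, mul_pow a b 3⟩
      one_mem' := ⟨1, one_pow 3⟩ }
  have key : ∀ y, y ∈ Subring.closure (S : Set F) → y ∈ AddSubgroup.closure (Set.range fun z : F => z ^ 3) := by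
    intro y hy
    rw [Subring.mem_closure_iff, Submonoid.closure_eq] at hy
    exact hy
  by_contra hne
  set K := Subring.closure (S : Set F) with hK
  have hK' : K ≠ ⊤ := fun e => hne (eq_top_iff.mpr fun y _ => key y (e ▸ Subring.mem_top y))
  let _ : Fintype K := Fintype.ofFinite _
  let _ : Field K := Fintype.fieldOfDomain K
  have e := Module.card_eq_pow_finrank (K := K) (V := F)
  have h2 : 2 ≤ Module.finrank K F := by
    by_contra hlt
    have hpos : 0 < Module.finrank K F := Module.finrank_pos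
    rw [show Module.finrank K F = 1 by omega, pow_one] at e
    refine hK' (eq_top_iff.mpr fun z _ => ?_)
    obtain ⟨y, hy⟩ := ((Fintype.bijective_iff_injective_and_card (fun y : K => (y : F))).mpr
      ⟨Subtype.val_injective, e.symm⟩).2 z
    exact hy ▸ y.2
  have hQ : 2 ≤ Fintype.card K := Fintype.one_lt_card
  have hfix : (ω : F) ^ (3 * (Fintype.card K - 1)) = 1 := by
    have hmem : (ω : F) ^ 3 ∈ K := Subring.subset_closure ⟨_, rfl⟩
    have := congrArg Subtype.val (FiniteField.pow_card_sub_one_eq_one (⟨(ω : F) ^ 3, hmem⟩ : K)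
      (fun h => pow_ne_zero 3 ω.ne_zero (congrArg Subtype.val h)))
    rw [pow_mul]
    simpa using this
  have hd : Fintype.card F - 1 ∣ 3 * (Fintype.card K - 1) := by
    rw [← Fintype.card_units, ← Nat.card_eq_fintype_card, ← orderOf_eq_card_of_forall_mem_zpowers hω,
      ← orderOf_units]
    exact orderOf_dvd_of_pow_eq_one hfix
  have hle := Nat.le_of_dvd (by omega) hd
  have hsq : Fintype.card K * Fintype.card K ≤ Fintype.card F := by
    rw [e, ← pow_two]
    exact Nat.pow_le_pow_right (by omega) h2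
  have hK2 : Fintype.card K = 2 := by
    by_contra hh
    have : 3 * Fintype.card K ≤ Fintype.card K * Fintype.card K := Nat.mul_le_mul_right _ (by omega)
    omega
  rw [hK2] at e hle
  have : Module.finrank K F ≤ 2 := by
    by_contra hh
    have := Nat.pow_le_pow_right (show 0 < 2 by norm_num) (show 3 ≤ Module.finrank K F by omega)
    omega
  rw [show Module.finrank K F = 2 by omega] at e
  exact h4 (by rw [e]; norm_num)

/-- The presentation when cubes span the field. -/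
theorem fourteen [Fintype F] (h4 : Fintype.card F ≠ 4) :
    ∃ rels : Finset (FreeGroup (Fin 4)), rels.card ≤ 14 ∧
      Nonempty (PresentedGroup (↑rels : Set (FreeGroup (Fin 4))) ≃* Matrix.SpecialLinearGroup (Fin 3) F) := by
  classical
  obtain ⟨p, _⟩ := CharP.exists F
  have : Fact p.Prime := ⟨CharP.char_is_prime F p⟩
  obtain ⟨ω, hω⟩ := IsCyclic.exists_generator (α := Fˣ)
  have hω0 : (ω : F) ≠ 0 := ω.ne_zero
  obtain ⟨n, hn, hcard, hspan⟩ := exists_span p _ (closure_inv_eq_top ω hω)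
  obtain ⟨m, hm⟩ := exists_log ω hω (-1) (by simp)
  obtain ⟨Wr, hWr, hWr'⟩ := exists_word ω n hspan (((ω : F)⁻¹) ^ n)
  obtain ⟨Wh, hWh, hWh'⟩ := exists_word ω n hspan ((ω : F) ^ 2)
  obtain ⟨A, hA, hA'⟩ := exists_word ω n hspan (ω : F)
  obtain ⟨B, hB, hB'⟩ := exists_word ω n hspan ((ω : F)⁻¹)
  obtain ⟨P, hP, hP'⟩ := exists_word ω n hspan 1
  obtain ⟨N, hN, hN'⟩ := exists_word ω n hspan (-1)
  obtain ⟨RA, hRA, hRA'⟩ : ∃ RA : FreeGroup (Fin 4), ev ω RA = 1 ∧ (3 ≤ n → ∃ k : ℕ,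
      RA = gB ^ k * gU * (gB ^ k)⁻¹ * (gU * (gB * gU * gB⁻¹))⁻¹) := by
    by_cases h3 : 3 ≤ n
    · have hne : (ω : F)⁻¹ + 1 ≠ 0 := by
        intro e
        have e1 : (ω : F) ^ 2 = 1 := by
          have : (ω : F)⁻¹ = -1 := eq_neg_of_add_eq_zero_left e
          rw [← inv_inv (ω : F), this]; simp
        have hd : Fintype.card F - 1 ∣ 2 := by
          rw [← Fintype.card_units, ← Nat.card_eq_fintype_card, ← orderOf_eq_card_of_forall_mem_zpowers hω,
            ← orderOf_units]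
          exact orderOf_dvd_of_pow_eq_one e1
        have := Nat.le_of_dvd two_pos hd
        have h8 := (Nat.pow_le_pow_left (Fact.out : p.Prime).two_le 3).trans
          ((Nat.pow_le_pow_right (Fact.out : p.Prime).pos h3).trans hcard)
        omega
      obtain ⟨k, hk⟩ := exists_log ω hω _ (inv_ne_zero hne)
      refine ⟨_, ?_, fun _ => ⟨k, rfl⟩⟩
      have e1 := ev_conj_pow ω 1
      simp only [pow_one] at e1
      rw [map_mul, map_inv, ev_conj_pow, map_mul (ev ω) gU, e1, ev_U, ← e01_add, inv_pow, hk, inv_inv, add_comm,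
        mul_inv_cancel]
    · exact ⟨1, map_one _, fun h => absurd h h3⟩
  refine presentation_of_list ω ([gU ^ p, RA, gU * (gB * gU * gB⁻¹) * gU⁻¹ * (gB * gU * gB⁻¹)⁻¹, gC * gC * gC] ++
    baseRels m n Wr Wh A B ++ commRels P N) (by simp [baseRels, commRels]) ?_ ?_
  · intro r hr
    simp only [List.mem_append, List.mem_cons, List.not_mem_nil, or_false] at hr
    rcases hr with ((rfl | rfl | rfl | rfl) | hr) | hr
    · rw [map_pow, ev_U, e01_pow, CharP.cast_eq_zero, zero_mul, e01_zero]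
    · exact hRA
    · exact ev_comm_B ω
    · rw [map_mul, map_mul, ev_C, c_cube]
    · exact ev_baseRels ω hm n hWr' hWh' hA' hB' r hr
    · exact ev_commRels ω 1 hP' hN' r hr
  · intro G _ f hf π hπf hrel
    obtain ⟨b1, b2, b3, b4, b5, b6, b7⟩ := facts_of_baseRels f (m := m) (n := n) (Wr := Wr) (Wh := Wh) (A := A) (B := B)
      (fun r hr => hrel r (by simp [hr]))
    have hcB : Commute (f gU) (f gB * f gU * (f gB)⁻¹) := by
      have := hrel (gU * (gB * gU * gB⁻¹) * gU⁻¹ * (gB * gU * gB⁻¹)⁻¹) (by simp)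
      rw [map_mul, map_inv, map_mul f (gU * _), map_mul f gU, map_mul f (gB * gU), map_mul f gB gU, map_inv,
        map_inv, mul_inv_eq_one, mul_inv_eq_iff_eq_mul] at this
      exact this
    refine bijective_of_rels p ω hω m hm n hn hcard hspan {1} (cubes_span h4 ω hω) f hf π hπf hWr hWh hA hB
      hA' hB' ?_ ?_ b1 b2 b3 b4 b5 ?_ b6 b7 ?_
    · rw [← map_pow]; exact hrel _ (by simp)
    · intro i hi
      match i with
      | 0 => simp
      | 1 => simpa using hcB
      | j + 2 =>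
        obtain ⟨k, hk'⟩ := hRA' (by omega)
        have h8 := hrel RA (by simp)
        rw [hk', map_mul, map_inv, mul_inv_eq_one, map_mul, map_mul, map_inv, map_pow, map_mul f gU,
          map_mul f (gB * gU), map_mul f gB gU, map_inv] at h8
        exact commute_conj ((Commute.refl (f gB)).pow_left k) hcB h8 (j + 2)
    · rw [← map_mul, ← map_mul]; exact hrel _ (by simp)
    · rintro e rfl
      exact ⟨P, N, hP, hN, hP', hN', fun r hr => hrel r (by simp [hr])⟩

/-- The presentation for the field with four elements. -/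
theorem fourteen_four [Fintype F] (h4 : Fintype.card F = 4) :
    ∃ rels : Finset (FreeGroup (Fin 4)), rels.card ≤ 14 ∧
      Nonempty (PresentedGroup (↑rels : Set (FreeGroup (Fin 4))) ≃* Matrix.SpecialLinearGroup (Fin 3) F) := by
  classical
  have : Fact (Nat.Prime 2) := ⟨Nat.prime_two⟩
  have : CharP F 2 := by
    obtain ⟨p, _⟩ := CharP.exists F
    obtain ⟨f, hp, hf⟩ := FiniteField.card F p
    rw [h4] at hf
    have : p ∣ 2 ^ 2 := by rw [show 2 ^ 2 = 4 by norm_num, hf]; exact dvd_pow_self p (by exact f.pos.ne')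
    rwa [(Nat.prime_dvd_prime_iff_eq hp Nat.prime_two).mp (hp.dvd_of_dvd_pow this)] at ‹CharP F p›
  obtain ⟨ω, hω⟩ := IsCyclic.exists_generator (α := Fˣ)
  have hω0 : (ω : F) ≠ 0 := ω.ne_zero
  have hord : orderOf (ω : F) = 3 := by
    rw [orderOf_units, orderOf_eq_card_of_forall_mem_zpowers hω, Nat.card_eq_fintype_card, Fintype.card_units, h4]
  have h3 : (ω : F) ^ 3 = 1 := by rw [← hord]; exact pow_orderOf_eq_one _
  have hω1 : (ω : F) ≠ 1 := fun e => by rw [e, orderOf_one] at hord; omega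
  have hq : (ω : F) ^ 2 = (ω : F) + 1 := by
    have : ((ω : F) - 1) * ((ω : F) ^ 2 + ω + 1) = 0 := by linear_combination h3
    rcases mul_eq_zero.mp this with h | h
    · exact absurd (sub_eq_zero.mp h) hω1
    · rw [← sub_eq_zero, CharTwo.sub_eq_add, ← h]; ring
  have hinv : (ω : F)⁻¹ = (ω : F) ^ 2 := inv_eq_of_mul_eq_one_right (by rw [← h3]; ring)
  have hmem : ∀ K : AddSubgroup F, (1 : F) ∈ K → (ω : F) ∈ K → K = ⊤ := fun K h1 hw => by
    refine eq_top_iff.mpr fun z _ => ?_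
    rcases eq_or_ne z 0 with rfl | hz
    · exact zero_mem _
    obtain ⟨k, rfl⟩ := exists_log ω hω z hz
    suffices h : ∀ j : ℕ, (ω : F) ^ j ∈ K ∧ (ω : F) ^ (j + 1) ∈ K from (h k).1
    intro j
    induction j with
    | zero => exact ⟨by simpa using h1, by simpa using hw⟩
    | succ j ih =>
      refine ⟨ih.2, ?_⟩
      rw [show j + 1 + 1 = j + 2 from rfl, pow_add, hq, mul_add, mul_one, ← pow_succ]
      exact add_mem ih.2 ih.1
  have hspan : AddSubgroup.closure (Set.range fun i : Fin 2 => ((ω : F)⁻¹) ^ (i : ℕ)) = ⊤ := by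
    have h1 : (1 : F) ∈ AddSubgroup.closure (Set.range fun i : Fin 2 => ((ω : F)⁻¹) ^ (i : ℕ)) :=
      AddSubgroup.subset_closure ⟨0, by simp⟩
    refine hmem _ h1 ?_
    have h2 : (ω : F)⁻¹ ∈ AddSubgroup.closure (Set.range fun i : Fin 2 => ((ω : F)⁻¹) ^ (i : ℕ)) :=
      AddSubgroup.subset_closure ⟨1, by simp⟩
    have := add_mem h2 h1
    rwa [show (ω : F)⁻¹ + 1 = ω by rw [hinv, hq, add_assoc, CharTwo.add_self_eq_zero, add_zero]] at this
  have hEs : AddSubgroup.closure {y : F | ∃ z e, e ∈ ({1, (ω : F)} : Set F) ∧ y = z ^ 3 * e} = ⊤ :=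
    hmem _ (AddSubgroup.subset_closure ⟨1, 1, by simp, by simp⟩)
      (AddSubgroup.subset_closure ⟨1, ω, by simp, by simp⟩)
  have hm : (ω : F) ^ 0 = -1 := by rw [pow_zero, CharTwo.neg_eq]
  obtain ⟨Wh, hWh, hWh'⟩ := exists_word ω 2 hspan ((ω : F) ^ 2)
  obtain ⟨A, hA, hA'⟩ := exists_word ω 2 hspan (ω : F)
  obtain ⟨B, hB, hB'⟩ := exists_word ω 2 hspan ((ω : F)⁻¹)
  obtain ⟨P, hP, hP'⟩ := exists_word ω 2 hspan 1
  obtain ⟨N, hN, hN'⟩ := exists_word ω 2 hspan (-1)
  obtain ⟨P', hP2, hP2'⟩ := exists_word ω 2 hspan (ω : F)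
  obtain ⟨N', hN2, hN2'⟩ := exists_word ω 2 hspan (-(ω : F))
  set Wr : FreeGroup (Fin 4) := gU * (gB * gU * gB⁻¹) with hWrdef
  have hWr : Wr ∈ Uw 2 := mul_mem (Subgroup.subset_closure ⟨0, by simp⟩) (Subgroup.subset_closure ⟨1, by simp⟩)
  have hWr' : ev ω Wr = e01 (((ω : F)⁻¹) ^ 2) := by
    have e1 := ev_conj_pow ω 1
    simp only [pow_one] at e1
    rw [hWrdef, map_mul, e1, ev_U, ← e01_add]
    congr 1
    rw [hinv]
    linear_combination hq - (ω : F) * h3 + CharTwo.two_eq_zero (R := F)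
  refine presentation_of_list ω ([gU ^ 2] ++ baseRels 0 2 Wr Wh A B ++ (commRels P N ++ commRels P' N'))
    (by simp [baseRels, commRels]) ?_ ?_
  · intro r hr
    simp only [List.mem_append, List.mem_cons, List.not_mem_nil, or_false] at hr
    rcases hr with (rfl | hr) | hr | hr
    · rw [map_pow, ev_U, e01_pow, CharP.cast_eq_zero, zero_mul, e01_zero]
    · exact ev_baseRels ω hm 2 hWr' hWh' hA' hB' r hr
    · exact ev_commRels ω 1 hP' hN' r hr
    · exact ev_commRels ω _ hP2' hN2' r hr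
  · intro G _ f hf π hπf hrel
    obtain ⟨b1, b2, b3, b4, b5, b6, b7⟩ := facts_of_baseRels f (m := 0) (n := 2) (Wr := Wr) (Wh := Wh) (A := A) (B := B)
      (fun r hr => hrel r (by simp [hr]))
    have r1 : f gU ^ 2 = 1 := by rw [← map_pow]; exact hrel _ (by simp)
    have huu : f gU * f gU = 1 := by rw [← sq, r1]
    refine bijective_of_rels 2 ω hω 0 hm 2 two_pos (by rw [h4]; norm_num) hspan {1, (ω : F)} hEs f hf π hπf hWr hWh
      hA hB hA' hB' r1 ?_ b1 b2 b3 b4 b5 ?_ b6 b7 ?_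
    · intro i hi
      match i, hi with
      | 0, _ => simp
      | 1, _ =>
        rw [pow_one]
        have hsq : ∀ z : G, z * z = 1 → z⁻¹ = z := fun z hz => inv_eq_of_mul_eq_one_right hz
        set u := f gU
        set v := f gB * u * (f gB)⁻¹ with hv
        have hvv : v * v = 1 := by
          rw [hv, show f gB * u * (f gB)⁻¹ * (f gB * u * (f gB)⁻¹) = f gB * (u * u) * (f gB)⁻¹ by group, huu]
          group
        have e : f gB ^ 2 * u * (f gB ^ 2)⁻¹ = u * v := by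
          rw [b1, hWrdef, hv]; simp [u]
        have huv : (u * v) * (u * v) = 1 := by
          rw [← e, show f gB ^ 2 * u * (f gB ^ 2)⁻¹ * (f gB ^ 2 * u * (f gB ^ 2)⁻¹) =
            f gB ^ 2 * (u * u) * (f gB ^ 2)⁻¹ by group, huu]
          group
        have := hsq _ huv
        rw [mul_inv_rev, hsq _ huu, hsq _ hvv] at this
        exact this.symm
    · have tt : f gT * f gT = 1 := by
        set u := f gU
        set s := f gT * u * (f gT)⁻¹ with hs
        have hss : s * s = 1 := by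
          rw [hs, show f gT * u * (f gT)⁻¹ * (f gT * u * (f gT)⁻¹) = f gT * (u * u) * (f gT)⁻¹ by group, huu]
          group
        rw [b4]
        calc u * s * u * (u * s * u) = u * s * (u * u) * s * u := by group
          _ = u * (s * s) * u := by rw [huu]; group
          _ = 1 := by rw [hss, mul_one, huu]
      have e : f gT * f gC * (f gT)⁻¹ = f gC * f gC := by rw [b6, pow_zero, mul_one]
      have hi : (f gT)⁻¹ = f gT := inv_eq_of_mul_eq_one_right tt
      have e4 : f gC = f gC * f gC * (f gC * f gC) := by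
        calc f gC = (f gT * f gT) * f gC * (f gT * f gT)⁻¹ := by rw [tt]; group
          _ = f gT * (f gT * f gC * (f gT)⁻¹) * (f gT)⁻¹ := by group
          _ = f gT * (f gC * f gC) * (f gT)⁻¹ := by rw [e]
          _ = (f gT * f gC * (f gT)⁻¹) * (f gT * f gC * (f gT)⁻¹) := by group
          _ = _ := by rw [e]
      calc f gC * f gC * f gC = (f gC * f gC * (f gC * f gC)) * (f gC)⁻¹ := by group
        _ = 1 := by rw [← e4, mul_inv_cancel]
    · intro e he
      rcases he with rfl | rfl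
      · exact ⟨P, N, hP, hN, hP', hN', fun r hr => hrel r (by simp [hr])⟩
      · exact ⟨P', N', hP2, hN2, hP2', hN2', fun r hr => hrel r (by simp [hr])⟩

end CfsgLib.SL3Pres
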