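import Cfsg.Agent.SL2Pres.Unipotent
set_option autoImplicit false

/-!
An abelian root subgroup parametrised by a finite field, from few relations.
-/

namespace CfsgLib.SL3Pres

open CfsgLib.SL2Pres.Short (commute_all)

variable {F : Type*} [Field F] [Fintype F] {p : ℕ} [Fact p.Prime] {M : Type*} [Group M] (E : Multiplicative F →* M)

/-- The unipotent subgroup, parametrised by `F`. -/
theorem exists_x (hEinj : Function.Injective E) {G : Type*} [Group G] (π : G →* M) (u b : G) (β : F) (n : ℕ)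
    (hu : u ^ p = 1) (hπu : π u = E (.ofAdd 1)) (hπb : ∀ v, π b * E (.ofAdd v) * (π b)⁻¹ = E (.ofAdd (β * v)))
    (hcomm : ∀ i, i < n → Commute u (b ^ i * u * (b ^ i)⁻¹))
    (hrec : b ^ n * u * (b ^ n)⁻¹ ∈
      Subgroup.closure (Set.range fun i : Fin n => b ^ (i : ℕ) * u * (b ^ (i : ℕ))⁻¹))
    (hspan : AddSubgroup.closure (Set.range fun i : Fin n => β ^ (i : ℕ)) = ⊤) (hn : 0 < n)
    (hcard : p ^ n ≤ Fintype.card F) :
    ∃ x : F → G, (∀ v w, x (v + w) = x v * x w) ∧ (∀ v, π (x v) = E (.ofAdd v)) ∧ x 1 = u ∧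
      (∀ v, x v ∈ Subgroup.closure (Set.range fun i : Fin n => b ^ (i : ℕ) * u * (b ^ (i : ℕ))⁻¹)) ∧
      ∀ z ∈ Subgroup.closure (Set.range fun i : Fin n => b ^ (i : ℕ) * u * (b ^ (i : ℕ))⁻¹),
        ∀ v, π z = E (.ofAdd v) → z = x v := by
  classical
  have hE' : ∀ {a b : F}, E (.ofAdd a) = E (.ofAdd b) → a = b := fun h => Multiplicative.ofAdd.injective (hEinj h)
  set e : Fin n → G := fun i => b ^ (i : ℕ) * u * (b ^ (i : ℕ))⁻¹ with he
  set U := Subgroup.closure (Set.range e) with hU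
  have : IsMulCommutative U := Subgroup.isMulCommutative_closure (by
    rintro _ ⟨i, rfl⟩ _ ⟨j, rfl⟩
    exact (commute_all hcomm i.2 j.2).eq)
  -- `U` is small
  let eU : Fin n → U := fun i => ⟨e i, Subgroup.subset_closure ⟨i, rfl⟩⟩
  let _ : CommGroup U := { (inferInstance : Group U) with mul_comm := fun a b => IsMulCommutative.is_comm.comm a b }
  let Φ : (Fin n → Multiplicative (ZMod p)) →* U :=
    { toFun := fun c => ∏ i, eU i ^ (c i).toAdd.val
      map_one' := by simp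
      map_mul' := fun c d => by
        rw [← Finset.prod_mul_distrib]
        refine Finset.prod_congr rfl fun i _ => ?_
        rw [← pow_add, pow_eq_pow_mod ((c i).toAdd.val + (d i).toAdd.val) (?_ : eU i ^ p = 1)]
        · congr 1
          exact ZMod.val_add _ _
        · refine Subtype.ext ?_
          show (e i) ^ p = 1
          rw [he, conj_pow, hu, mul_one, mul_inv_cancel] }
  have hΦ : Function.Surjective Φ := by
    intro y
    have hle : U ≤ Subgroup.map U.subtype Φ.range := by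
      refine (Subgroup.closure_le _).mpr ?_
      rintro _ ⟨i, rfl⟩
      refine ⟨eU i, ⟨Pi.mulSingle i (Multiplicative.ofAdd 1), ?_⟩, rfl⟩
      show ∏ j, eU j ^ ((Pi.mulSingle i (Multiplicative.ofAdd (1 : ZMod p)) : Fin n → _) j).toAdd.val = eU i
      rw [Finset.prod_eq_single i]
      · simp [ZMod.val_one]
      · intro j _ hj
        simp [Pi.mulSingle_eq_of_ne hj]
      · simp
    obtain ⟨z, hz, hzy⟩ := hle y.2
    obtain rfl : z = y := Subtype.ext hzy
    exact hz
  have hcardU : Nat.card U ≤ Fintype.card F := by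
    refine le_trans (Nat.card_le_card_of_surjective Φ hΦ) (le_of_eq_of_le ?_ hcard)
    simp
  have : Finite U := Finite.of_surjective Φ hΦ
  -- the projection is a bijection with the upper unitriangular group
  have hπe : ∀ k : ℕ, π (b ^ k * u * (b ^ k)⁻¹) = E (.ofAdd (β ^ k)) := by
    intro k
    induction k with
    | zero => simp [hπu]
    | succ k ih =>
      rw [show b ^ (k + 1) * u * (b ^ (k + 1))⁻¹ = b * (b ^ k * u * (b ^ k)⁻¹) * b⁻¹ by rw [pow_succ']; group,
        map_mul, map_mul, map_inv, ih, hπb, ← pow_succ']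
  have hmem : ∀ z ∈ U, ∃ v, π z = E (.ofAdd v) := by
    intro z hz
    have hle : U ≤ E.range.comap π := by
      rw [hU, Subgroup.closure_le]
      rintro _ ⟨i, rfl⟩
      exact ⟨Multiplicative.ofAdd (β ^ (i : ℕ)), (hπe i).symm⟩
    obtain ⟨v, hv⟩ := hle hz
    exact ⟨v.toAdd, hv.symm⟩
  choose lg hlg using fun z : U => hmem z.1 z.2
  have hsurj : Function.Surjective lg := by
    intro v
    have hv : v ∈ AddSubgroup.closure (Set.range fun i : Fin n => β ^ (i : ℕ)) := by rw [hspan]; trivial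
    induction hv using AddSubgroup.closure_induction with
    | mem y hy =>
      obtain ⟨i, rfl⟩ := hy
      exact ⟨eU i, hE' (by rw [← hlg]; exact hπe i)⟩
    | zero =>
      exact ⟨1, hE' (by
        rw [← hlg, OneMemClass.coe_one, map_one]; exact E.map_one.symm)⟩
    | add y y' _ _ hy hy' =>
      obtain ⟨z, rfl⟩ := hy
      obtain ⟨z', rfl⟩ := hy'
      exact ⟨z * z', hE' (by
        rw [← hlg, Subgroup.coe_mul, map_mul, hlg, hlg]
        exact (E.map_mul (Multiplicative.ofAdd (lg z)) (Multiplicative.ofAdd (lg z'))).symm)⟩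
    | neg y _ hy =>
      obtain ⟨z, rfl⟩ := hy
      exact ⟨z⁻¹, hE' (by
        rw [← hlg, Subgroup.coe_inv, map_inv, hlg]
        exact (E.map_inv (Multiplicative.ofAdd (lg z))).symm)⟩
  have hbij : Function.Bijective lg := by
    rw [Nat.bijective_iff_surjective_and_card]
    refine ⟨hsurj, le_antisymm (by rwa [Nat.card_eq_fintype_card (α := F)]) ?_⟩
    exact Nat.card_le_card_of_surjective lg hsurj
  let ψ := Equiv.ofBijective lg hbij
  have huniq : ∀ z ∈ U, ∀ v, π z = E (.ofAdd v) → z = (ψ.symm v).1 := by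
    intro z hz v hv
    have h1 : lg ⟨z, hz⟩ = v := hE' (by rw [← hlg]; exact hv)
    rw [← h1, show lg ⟨z, hz⟩ = ψ ⟨z, hz⟩ from rfl, Equiv.symm_apply_apply]
  have hπx : ∀ v, π (ψ.symm v).1 = E (.ofAdd v) := fun v => by
    rw [hlg, show lg (ψ.symm v) = ψ (ψ.symm v) from rfl, Equiv.apply_symm_apply]
  refine ⟨fun v => (ψ.symm v).1, fun v w => ?_, hπx, ?_, fun v => (ψ.symm v).2, huniq⟩
  · refine (huniq _ (mul_mem (ψ.symm v).2 (ψ.symm w).2) _ ?_).symm
    rw [map_mul, hπx, hπx]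
    exact (E.map_mul (Multiplicative.ofAdd v) (Multiplicative.ofAdd w)).symm
  · refine (huniq u (Subgroup.subset_closure ⟨⟨0, hn⟩, ?_⟩) 1 hπu).symm
    simp [e]

omit [Fintype F] in
/-- Elements commuting with `b` which move `u` into the unipotent subgroup act on it by scalars. -/
theorem conj_x {G : Type*} [Group G] (π : G →* M) (u b : G) (n : ℕ)
    (x : F → G) (hπx : ∀ v, π (x v) = E (.ofAdd v))
    (hx : ∀ v, x v ∈ Subgroup.closure (Set.range fun i : Fin n => b ^ (i : ℕ) * u * (b ^ (i : ℕ))⁻¹))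
    (huniq : ∀ z ∈ Subgroup.closure (Set.range fun i : Fin n => b ^ (i : ℕ) * u * (b ^ (i : ℕ))⁻¹),
        ∀ v, π z = E (.ofAdd v) → z = x v)
    (hrec : b ^ n * u * (b ^ n)⁻¹ ∈
      Subgroup.closure (Set.range fun i : Fin n => b ^ (i : ℕ) * u * (b ^ (i : ℕ))⁻¹))
    (k : G) (hkb : Commute k b) (e : F)
    (hk : k * u * k⁻¹ ∈ Subgroup.closure (Set.range fun i : Fin n => b ^ (i : ℕ) * u * (b ^ (i : ℕ))⁻¹))
    (hπk : ∀ v, π k * E (.ofAdd v) * (π k)⁻¹ = E (.ofAdd (e * v))) (v : F) :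
    k * x v * k⁻¹ = x (e * v) := by
  set U := Subgroup.closure (Set.range fun i : Fin n => b ^ (i : ℕ) * u * (b ^ (i : ℕ))⁻¹) with hU
  have hb : ∀ z ∈ U, b * z * b⁻¹ ∈ U := by
    have hle : U ≤ U.comap (MulAut.conj b).toMonoidHom := by
      rw [hU, Subgroup.closure_le]
      rintro _ ⟨i, rfl⟩
      simp only [SetLike.mem_coe, Subgroup.mem_comap, MulEquiv.coe_toMonoidHom, MulAut.conj_apply]
      have e1 : b * (b ^ (i : ℕ) * u * (b ^ (i : ℕ))⁻¹) * b⁻¹ = b ^ (i.1 + 1) * u * (b ^ (i.1 + 1))⁻¹ := by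
        rw [pow_succ']; group
      rw [e1]
      rcases Nat.lt_or_ge (i.1 + 1) n with h | h
      · exact Subgroup.subset_closure ⟨⟨i.1 + 1, h⟩, rfl⟩
      · rw [show i.1 + 1 = n by omega]; exact hrec
    exact fun z hz => hle hz
  have hbpow : ∀ (i : ℕ), ∀ z ∈ U, b ^ i * z * (b ^ i)⁻¹ ∈ U := by
    intro i
    induction i with
    | zero => simp
    | succ i ih =>
      intro z hz
      have e1 : b ^ (i + 1) * z * (b ^ (i + 1))⁻¹ = b * (b ^ i * z * (b ^ i)⁻¹) * b⁻¹ := by rw [pow_succ']; group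
      rw [e1]; exact hb _ (ih z hz)
  have hkU : U ≤ U.comap (MulAut.conj k).toMonoidHom := by
    rw [hU, Subgroup.closure_le]
    rintro _ ⟨i, rfl⟩
    simp only [SetLike.mem_coe, Subgroup.mem_comap, MulEquiv.coe_toMonoidHom, MulAut.conj_apply]
    have e1 : k * b ^ (i : ℕ) = b ^ (i : ℕ) * k := (hkb.pow_right i.1).eq
    rw [show k * (b ^ (i : ℕ) * u * (b ^ (i : ℕ))⁻¹) * k⁻¹ = (k * b ^ (i : ℕ)) * u * (k * b ^ (i : ℕ))⁻¹ by group,
      e1, show b ^ (i : ℕ) * k * u * (b ^ (i : ℕ) * k)⁻¹ = b ^ (i : ℕ) * (k * u * k⁻¹) * (b ^ (i : ℕ))⁻¹ by group]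
    exact hbpow _ _ hk
  refine huniq _ (show k * x v * k⁻¹ ∈ U from hkU (hx v)) _ ?_
  rw [map_mul, map_mul, map_inv, hπx, hπk]

end CfsgLib.SL3Pres
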