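import Cfsg.Agent.SL3Pres.Mats
import Cfsg.Agent.SL3Pres.Roots
import Cfsg.Agent.SLPres.Induct
import Cfsg.Agent.SLn.Basic
set_option autoImplicit false

/-!
From few relations to the Steinberg relations of `SL₃(F)`.
-/

namespace CfsgLib.SL3Pres

variable {F : Type*} [Field F]

section Formal

variable {G : Type*} [Group G] (x : F → G) (c t : G)

/-- The opposite root subgroup. -/
def Y (v : F) : G := t * x (-v) * t⁻¹

/-- All root subgroups, as conjugates of the first two. -/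
def X (i j : Fin 3) (v : F) : G :=
  if j = i + 1 then c ^ (i : ℕ) * x v * (c ^ (i : ℕ))⁻¹ else c ^ (j : ℕ) * Y x t v * (c ^ (j : ℕ))⁻¹

theorem X01 (v : F) : X x c t 0 1 v = x v := by simp [X]

theorem X10 (v : F) : X x c t 1 0 v = Y x t v := by simp [X]

theorem X12 (v : F) : X x c t 1 2 v = c * x v * c⁻¹ := by simp [X]

theorem X21 (v : F) : X x c t 2 1 v = c * Y x t v * c⁻¹ := by simp [X]

theorem X20 (v : F) : X x c t 2 0 v = c * c * x v * (c * c)⁻¹ := by simp [X, pow_two]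

theorem X02 (v : F) : X x c t 0 2 v = c * c * Y x t v * (c * c)⁻¹ := by simp [X, pow_two]

theorem X_add (hadd : ∀ v w, x (v + w) = x v * x w) (i j : Fin 3) (v w : F) :
    X x c t i j (v + w) = X x c t i j v * X x c t i j w := by
  unfold X Y
  split_ifs
  · rw [hadd]; group
  · rw [neg_add, hadd]; group

theorem X_conj (hc : c * c * c = 1) {i j : Fin 3} (hij : i ≠ j) (v : F) :
    c * X x c t i j v * c⁻¹ = X x c t (i + 1) (j + 1) v := by
  have k : ∀ g : G, c * (c * c * g * (c * c)⁻¹) * c⁻¹ = g := fun g => by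
    calc c * (c * c * g * (c * c)⁻¹) * c⁻¹ = (c * c * c) * g * (c * c * c)⁻¹ := by group
      _ = g := by rw [hc]; group
  fin_cases i <;> fin_cases j <;> simp at hij <;>
    simp only [Fin.isValue, Fin.zero_eta, Fin.mk_one, Fin.reduceFinMk, Fin.reduceAdd, zero_add, X01, X10, X12, X21,
      X20, X02] <;>
    first
      | rfl
      | exact k _
      | simp [mul_assoc]

end Formal

/-- Spreading a property from representatives, by cubes. -/
theorem spread [Fintype F] (Es : Set F) (hEs : AddSubgroup.closure {y : F | ∃ z e, e ∈ Es ∧ y = z ^ 3 * e} = ⊤)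
    (P : F → Prop) (h0 : P 0) (hadd : ∀ a b, P a → P b → P (a + b)) (s : F) (hs : s ≠ 0)
    (hP : ∀ z : Fˣ, ∀ e ∈ Es, P (s * ((z : F) ^ 3 * e))) (w : F) : P w := by
  obtain ⟨p, _⟩ := CharP.exists F
  have hp : p.Prime := CharP.char_is_prime F p
  suffices h : ∀ y, P (s * y) by
    have := h (s⁻¹ * w); rwa [← mul_assoc, mul_inv_cancel₀ hs, one_mul] at this
  intro y
  have hy : y ∈ AddSubgroup.closure {y : F | ∃ z e, e ∈ Es ∧ y = z ^ 3 * e} := by rw [hEs]; trivial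
  induction hy using AddSubgroup.closure_induction with
  | mem y hy =>
    obtain ⟨z, e, he, rfl⟩ := hy
    rcases eq_or_ne z 0 with rfl | hz
    · simpa using h0
    · exact hP (Units.mk0 z hz) e he
  | zero => simpa using h0
  | add a b _ _ ha hb => rw [mul_add]; exact hadd _ _ ha hb
  | neg a _ ha =>
    have hn : ∀ n : ℕ, P (s * ((n : F) * a)) := by
      intro n
      induction n with
      | zero => simpa using h0
      | succ n ih => rw [Nat.cast_succ, add_mul, one_mul, mul_add]; exact hadd _ _ ih ha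
    have := hn (p - 1)
    rwa [Nat.cast_sub hp.pos, CharP.cast_eq_zero, Nat.cast_one, zero_sub, neg_one_mul] at this

/-- The derived data give an isomorphism with `SL₃(F)`. -/
theorem bijective_of_data [Fintype F] {G : Type*} [Group G] (π : G →* Matrix.SpecialLinearGroup (Fin 3) F) (h t c : G) (x : F → G)
    (ω : Fˣ) (hω : ∀ z : Fˣ, z ∈ Subgroup.zpowers ω) (m : ℕ) (hm : (ω : F) ^ m = -1)
    (hadd : ∀ v w, x (v + w) = x v * x w) (hπx : ∀ v, π (x v) = e01 v) (hπt : π t = mT F) (hπc : π c = mC F)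
    (hgen : Subgroup.closure {x 1, h, t, c} = ⊤)
    (hhx : ∀ v, h * x v * h⁻¹ = x ((ω : F) ^ 2 * v))
    (hbx : ∀ v, c * h * c⁻¹ * x v * (c * h * c⁻¹)⁻¹ = x ((ω : F)⁻¹ * v))
    (hhb : Commute h (c * h * c⁻¹))
    (htx : ∀ v, t * t * x v * (t * t)⁻¹ = x v)
    (htb : t * (c * h * c⁻¹) * t⁻¹ = t⁻¹ * (c * h * c⁻¹) * t)
    (hbraid : t = x 1 * Y x t (-1) * x 1)
    (hhdef : h = x (ω : F) * Y x t (-(ω : F)⁻¹) * x (ω : F) * t⁻¹)
    (hc : c * c * c = 1) (hR : t * c * t⁻¹ = c * c * (c * h * c⁻¹) ^ m)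
    (hR14 : t⁻¹ * (c * h * c⁻¹) * t = h * (c * h * c⁻¹))
    (Es : Set F) (hEs : AddSubgroup.closure {y : F | ∃ z e, e ∈ Es ∧ y = z ^ 3 * e} = ⊤)
    (hs : ∀ e ∈ Es, Commute (x 1) (X x c t 0 2 e)) (hg : ∀ e ∈ Es, Commute (x 1) (X x c t 2 1 e))
    (hr : ∀ e ∈ Es, x 1 * X x c t 1 2 e * (x 1)⁻¹ * (X x c t 1 2 e)⁻¹ = X x c t 0 2 e) :
    Function.Bijective π := by
  classical
  set b := c * h * c⁻¹ with hb
  set y := Y x t with hy
  have hω0 : (ω : F) ≠ 0 := ω.ne_zero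
  have x0 : x 0 = 1 := by
    have := hadd 0 0
    rw [add_zero] at this
    exact left_eq_mul.mp this
  have xneg : ∀ v, x (-v) = (x v)⁻¹ := fun v =>
    eq_inv_of_mul_eq_one_left (by rw [← hadd, neg_add_cancel, x0])
  have hbh : t * b * t⁻¹ = b * h := by rw [htb, hR14, hhb.eq]
  have hth : t * h * t⁻¹ = h⁻¹ := by
    have e : t * (h * b) * t⁻¹ = b := by rw [← hR14]; group
    rw [show t * (h * b) * t⁻¹ = (t * h * t⁻¹) * (t * b * t⁻¹) by group, hbh] at e
    calc t * h * t⁻¹ = t * h * t⁻¹ * (b * h) * (b * h)⁻¹ := by group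
      _ = b * (b * h)⁻¹ := by rw [e]
      _ = b * (h * b)⁻¹ := by rw [hhb.eq]
      _ = _ := by group
  have hxi : ∀ (g : G) (s : F), s ≠ 0 → (∀ v, g * x v * g⁻¹ = x (s * v)) → ∀ v, g⁻¹ * x v * g = x (s⁻¹ * v) :=
    fun g s hs hg v => by
      have e := hg (s⁻¹ * v)
      rw [← mul_assoc s, mul_inv_cancel₀ hs, one_mul] at e
      rw [← e]; group
  have hby : ∀ v, b * y v * b⁻¹ = y ((ω : F) * v) := fun v => by
    have e : b * t = t * (h * b) := by rw [← hR14]; group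
    simp only [hy, Y]
    calc b * (t * x (-v) * t⁻¹) * b⁻¹ = (b * t) * x (-v) * (b * t)⁻¹ := by group
      _ = t * (h * (b * x (-v) * b⁻¹) * h⁻¹) * t⁻¹ := by rw [e]; group
      _ = _ := by
        rw [hbx, hhx]
        congr 2
        field_simp
  have hhy : ∀ v, h * y v * h⁻¹ = y (((ω : F) ^ 2)⁻¹ * v) := fun v => by
    have e : h * t = t * h⁻¹ := by
      have e' : h⁻¹ * t = t * h := by rw [← hth]; group
      calc h * t = h * (t * h) * h⁻¹ := by group
        _ = h * (h⁻¹ * t) * h⁻¹ := by rw [e']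
        _ = _ := by group
    simp only [hy, Y]
    calc h * (t * x (-v) * t⁻¹) * h⁻¹ = (h * t) * x (-v) * (h * t)⁻¹ := by group
      _ = t * (h⁻¹ * x (-v) * h) * t⁻¹ := by rw [e]; group
      _ = _ := by
        rw [hxi h _ (pow_ne_zero 2 hω0) hhx, mul_neg]
  have hbm : Commute h (b ^ m) := hhb.pow_right m
  have hcb : c * b * c⁻¹ = (b * h)⁻¹ := by
    have e1 : t * b * t⁻¹ = (t * c * t⁻¹) * (t * h * t⁻¹) * (t * c * t⁻¹)⁻¹ := by rw [hb]; group
    rw [hth, hR, hbh] at e1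
    have e2 : c * c * b ^ m * h⁻¹ * (c * c * b ^ m)⁻¹ = (c * b * c⁻¹)⁻¹ := by
      calc c * c * b ^ m * h⁻¹ * (c * c * b ^ m)⁻¹ = c * c * (b ^ m * h⁻¹ * (b ^ m)⁻¹) * (c * c)⁻¹ := by group
        _ = c * c * h⁻¹ * (c * c)⁻¹ := by
          rw [show b ^ m * h⁻¹ = h⁻¹ * b ^ m from (hbm.inv_left.eq).symm]; group
        _ = _ := by rw [hb]; simp [mul_assoc]
    rw [e2] at e1
    rw [e1, inv_inv]
  -- actions on the roots used for scaling
  have hcx : ∀ v, X x c t 1 2 v = c * x v * c⁻¹ := X12 x c t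
  have hXc : ∀ {i j : Fin 3}, i ≠ j → ∀ v, c * X x c t i j v * c⁻¹ = X x c t (i + 1) (j + 1) v :=
    fun hij v => X_conj x c t hc hij v
  have hc' : c⁻¹ = c * c := inv_eq_of_mul_eq_one_right (by rw [← mul_assoc, hc])
  have hhback : c⁻¹ * b * c = h := by rw [hb]; group
  have hconj : ∀ g : G, c⁻¹ * g * c = c * (c * g * c⁻¹) * c⁻¹ := fun g => by
    calc c⁻¹ * g * c = c⁻¹ * g * c⁻¹⁻¹ := by group
      _ = (c * c) * g * (c * c)⁻¹ := by rw [hc']
      _ = _ := by simp [mul_assoc]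
  have hbb : c⁻¹ * h * c = (b * h)⁻¹ := by rw [hconj, ← hb, hcb]
  have hbx' : ∀ v, (b * h)⁻¹ * x v * (b * h) = x ((ω : F)⁻¹ * v) := fun v => by
    rw [show (b * h)⁻¹ * x v * (b * h) = h⁻¹ * (b⁻¹ * x v * b) * h by group,
      hxi b _ (inv_ne_zero hω0) hbx, hxi h _ (pow_ne_zero 2 hω0) hhx, inv_inv]
    congr 1
    field_simp
  have hbh2 : ∀ v, (b * h)⁻¹ * y v * (b * h) = y ((ω : F) * v) := fun v => by
    have hbi : ∀ v, b⁻¹ * y v * b = y ((ω : F)⁻¹ * v) := fun v => by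
      have e := hby ((ω : F)⁻¹ * v)
      rw [← mul_assoc, mul_inv_cancel₀ hω0, one_mul] at e
      rw [← e]; group
    have hhi : ∀ v, h⁻¹ * y v * h = y ((ω : F) ^ 2 * v) := fun v => by
      have e := hhy ((ω : F) ^ 2 * v)
      rw [← mul_assoc, inv_mul_cancel₀ (pow_ne_zero 2 hω0), one_mul] at e
      rw [← e]; group
    rw [show (b * h)⁻¹ * y v * (b * h) = h⁻¹ * (b⁻¹ * y v * b) * h by group, hbi, hhi]
    congr 1
    field_simp
  have hshift : ∀ (g z : G), g * (c * z * c⁻¹) * g⁻¹ = c * ((c⁻¹ * g * c) * z * (c⁻¹ * g * c)⁻¹) * c⁻¹ :=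
    fun g z => by group
  have hshift2 : ∀ (g z : G), g * (c * c * z * (c * c)⁻¹) * g⁻¹ =
      c * c * ((c⁻¹ * (c⁻¹ * g * c) * c) * z * (c⁻¹ * (c⁻¹ * g * c) * c)⁻¹) * (c * c)⁻¹ := fun g z => by group
  have hcc : c⁻¹ * (b * h)⁻¹ * c = b := by rw [← hcb]; group
  have b12 : ∀ v, b * X x c t 1 2 v * b⁻¹ = X x c t 1 2 ((ω : F) ^ 2 * v) := fun v => by
    rw [X12, hshift, hhback, hhx, X12]
  have h12 : ∀ v, h * X x c t 1 2 v * h⁻¹ = X x c t 1 2 ((ω : F)⁻¹ * v) := fun v => by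
    rw [X12, hshift, hbb, inv_inv, hbx', X12]
  have b21 : ∀ v, b * X x c t 2 1 v * b⁻¹ = X x c t 2 1 (((ω : F) ^ 2)⁻¹ * v) := fun v => by
    rw [X21, hshift, hhback, ← hy, hhy, X21]
  have h21 : ∀ v, h * X x c t 2 1 v * h⁻¹ = X x c t 2 1 ((ω : F) * v) := fun v => by
    rw [X21, hshift, hbb, inv_inv, ← hy, hbh2, X21]
  have b02 : ∀ v, b * X x c t 0 2 v * b⁻¹ = X x c t 0 2 ((ω : F) * v) := fun v => by
    rw [X02, hshift2, hhback, hbb, inv_inv, ← hy, hbh2, X02]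
  have h02 : ∀ v, h * X x c t 0 2 v * h⁻¹ = X x c t 0 2 ((ω : F) * v) := fun v => by
    rw [X02, hshift2, hbb, hcc, ← hy, hby, X02]
  have hact : ∀ (g : G) (i j : Fin 3) (s : F), (∀ v, g * X x c t i j v * g⁻¹ = X x c t i j (s * v)) →
      ∀ (n : ℕ) v, g ^ n * X x c t i j v * (g ^ n)⁻¹ = X x c t i j (s ^ n * v) := by
    intro g i j s hg n
    induction n with
    | zero => simp
    | succ n ih =>
      intro v
      rw [show g ^ (n + 1) * X x c t i j v * (g ^ (n + 1))⁻¹ = g * (g ^ n * X x c t i j v * (g ^ n)⁻¹) * g⁻¹ by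
        rw [pow_succ']; group, ih, hg, pow_succ']
      congr 1; ring
  have hactinv : ∀ (g : G) (i j : Fin 3) (s : F), s ≠ 0 → (∀ v, g * X x c t i j v * g⁻¹ = X x c t i j (s * v)) →
      ∀ v, g⁻¹ * X x c t i j v * g⁻¹⁻¹ = X x c t i j (s⁻¹ * v) := fun g i j s hs hg v => by
    have e := hg (s⁻¹ * v)
    rw [← mul_assoc s, mul_inv_cancel₀ hs, one_mul] at e
    rw [← e]; group
  have hex : ∀ z : Fˣ, ∃ k : ℕ, (ω : F) ^ k = z := fun z => by
    obtain ⟨k, hk⟩ := mem_zpowers_iff_mem_range_orderOf.mp (hω z) |> Finset.mem_image.mp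
    exact ⟨k, by rw [← Units.val_pow_eq_pow_val, hk.2]⟩
  have hscale : ∀ α z : Fˣ, ∃ g : G, g * x 1 * g⁻¹ = x (α : F) ∧
      (∀ v, g * X x c t 0 2 v * g⁻¹ = X x c t 0 2 ((α : F)⁻¹ * (z : F) ^ 3 * v)) ∧
      (∀ v, g * X x c t 2 1 v * g⁻¹ = X x c t 2 1 ((α : F) ^ 2 * ((z : F) ^ 3)⁻¹ * v)) ∧
      (∀ v, g * X x c t 1 2 v * g⁻¹ = X x c t 1 2 (((α : F) ^ 2)⁻¹ * (z : F) ^ 3 * v)) := by
    intro α z
    obtain ⟨k, hk⟩ := hex z
    obtain ⟨a, ha⟩ := hex α
    have key : ∀ (i j : Fin 3) (sb sh : F), sb ≠ 0 → (∀ v, b * X x c t i j v * b⁻¹ = X x c t i j (sb * v)) →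
        (∀ v, h * X x c t i j v * h⁻¹ = X x c t i j (sh * v)) → ∀ v,
        (b * b * h) ^ k * b⁻¹ ^ a * X x c t i j v * ((b * b * h) ^ k * b⁻¹ ^ a)⁻¹ =
          X x c t i j ((sb⁻¹) ^ a * (sb * sb * sh) ^ k * v) := by
      intro i j sb sh hsb hgb hgh v
      have h3 : ∀ v, b * b * h * X x c t i j v * (b * b * h)⁻¹ = X x c t i j (sb * sb * sh * v) := fun v => by
        rw [show b * b * h * X x c t i j v * (b * b * h)⁻¹ = b * (b * (h * X x c t i j v * h⁻¹) * b⁻¹) * b⁻¹ by group,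
          hgh, hgb, hgb]
        congr 1; ring
      rw [show (b * b * h) ^ k * b⁻¹ ^ a * X x c t i j v * ((b * b * h) ^ k * b⁻¹ ^ a)⁻¹ =
        (b * b * h) ^ k * (b⁻¹ ^ a * X x c t i j v * (b⁻¹ ^ a)⁻¹) * ((b * b * h) ^ k)⁻¹ by group,
        hact b⁻¹ i j sb⁻¹ (hactinv b i j sb hsb hgb) a v, hact _ i j _ h3 k]
      congr 1; ring
    refine ⟨(b * b * h) ^ k * b⁻¹ ^ a, ?_, fun v => ?_, fun v => ?_, fun v => ?_⟩
    · rw [← X01 x c t 1, key 0 1 _ _ (inv_ne_zero hω0) (fun v => by simp only [X01]; exact hbx v)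
        (fun v => by simp only [X01]; exact hhx v), X01]
      congr 1
      rw [inv_inv, show ((ω : F)⁻¹ * (ω : F)⁻¹ * (ω : F) ^ 2) = 1 by field_simp, one_pow, mul_one, mul_one, ha]
    · rw [key 0 2 _ _ hω0 b02 h02, inv_pow, ha, show ((ω : F) * ω * ω) ^ k = ((ω : F) ^ k) ^ 3 by ring, hk]
    · have e : ((ω : F) ^ 2)⁻¹ * ((ω : F) ^ 2)⁻¹ * (ω : F) = ((ω : F) ^ 3)⁻¹ := by field_simp
      rw [key 2 1 _ _ (inv_ne_zero (pow_ne_zero 2 hω0)) b21 h21, e, inv_inv, ← pow_mul, mul_comm 2 a, pow_mul, ha,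
        inv_pow, ← pow_mul (ω : F) 3 k, mul_comm 3 k, pow_mul, hk]
    · have e : (ω : F) ^ 2 * (ω : F) ^ 2 * (ω : F)⁻¹ = (ω : F) ^ 3 := by field_simp
      rw [key 1 2 _ _ (pow_ne_zero 2 hω0) b12 h12, e, inv_pow, ← pow_mul (ω : F) 2 a, mul_comm 2 a, pow_mul, ha,
        ← pow_mul, mul_comm 3 k, pow_mul, hk]
  -- the three families
  have hXadd : ∀ i j v w, X x c t i j (v + w) = X x c t i j v * X x c t i j w := X_add x c t hadd
  have hX0 : ∀ i j, X x c t i j 0 = 1 := fun i j => by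
    have := hXadd i j 0 0
    rw [add_zero] at this
    exact left_eq_mul.mp this
  have S0 : ∀ a w, Commute (x a) (X x c t 0 2 w) := by
    intro a w
    rcases eq_or_ne a 0 with rfl | ha
    · rw [x0]; exact Commute.one_left _
    refine spread Es hEs (fun w => Commute (x a) (X x c t 0 2 w)) (by rw [hX0]; exact Commute.one_right _)
      (fun v v' h h' => by rw [hXadd]; exact h.mul_right h') a⁻¹ (inv_ne_zero ha) (fun z e he => ?_) w
    obtain ⟨g, hg1, hg2, -, -⟩ := hscale (Units.mk0 a ha) z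
    have := (hs e he).map (MulAut.conj g).toMonoidHom
    simp only [MulEquiv.coe_toMonoidHom, MulAut.conj_apply, hg1, hg2, Units.val_mk0] at this
    rwa [mul_assoc] at this
  have T0 : ∀ a w, Commute (x a) (X x c t 2 1 w) := by
    intro a w
    rcases eq_or_ne a 0 with rfl | ha
    · rw [x0]; exact Commute.one_left _
    refine spread Es hEs (fun w => Commute (x a) (X x c t 2 1 w)) (by rw [hX0]; exact Commute.one_right _)
      (fun v v' h h' => by rw [hXadd]; exact h.mul_right h') (a ^ 2) (pow_ne_zero 2 ha) (fun z e he => ?_) w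
    obtain ⟨g, hg1, -, hg2, -⟩ := hscale (Units.mk0 a ha) z⁻¹
    have := (hg e he).map (MulAut.conj g).toMonoidHom
    simp only [MulEquiv.coe_toMonoidHom, MulAut.conj_apply, hg1, hg2, Units.val_mk0] at this
    simpa [mul_assoc] using this
  have hcc2 : ∀ {i j k l : Fin 3}, i ≠ j → k ≠ l → ∀ v w, Commute (X x c t i j v) (X x c t k l w) →
      Commute (X x c t (i + 1) (j + 1) v) (X x c t (k + 1) (l + 1) w) := fun hij hkl v w h => by
    have := h.map (MulAut.conj c).toMonoidHom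
    simpa [MulAut.conj_apply, hXc hij, hXc hkl] using this
  have hS : ∀ (i : Fin 3) v w, Commute (X x c t i (i + 1) v) (X x c t i (i + 2) w) := by
    have h0 : ∀ v w, Commute (X x c t 0 1 v) (X x c t 0 2 w) := fun v w => by rw [X01]; exact S0 v w
    have h1 : ∀ v w, Commute (X x c t 1 2 v) (X x c t 1 0 w) := fun v w =>
      hcc2 (i := 0) (j := 1) (k := 0) (l := 2) (by decide) (by decide) v w (h0 v w)
    have h2 : ∀ v w, Commute (X x c t 2 0 v) (X x c t 2 1 w) := fun v w =>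
      hcc2 (i := 1) (j := 2) (k := 1) (l := 0) (by decide) (by decide) v w (h1 v w)
    intro i v w
    fin_cases i
    · exact h0 v w
    · exact h1 v w
    · exact h2 v w
  have hT : ∀ (i : Fin 3) v w, Commute (X x c t i (i + 1) v) (X x c t (i + 2) (i + 1) w) := by
    have h0 : ∀ v w, Commute (X x c t 0 1 v) (X x c t 2 1 w) := fun v w => by rw [X01]; exact T0 v w
    have h1 : ∀ v w, Commute (X x c t 1 2 v) (X x c t 0 2 w) := fun v w =>
      hcc2 (i := 0) (j := 1) (k := 2) (l := 1) (by decide) (by decide) v w (h0 v w)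
    have h2 : ∀ v w, Commute (X x c t 2 0 v) (X x c t 1 0 w) := fun v w =>
      hcc2 (i := 1) (j := 2) (k := 0) (l := 2) (by decide) (by decide) v w (h1 v w)
    intro i v w
    fin_cases i
    · exact h0 v w
    · exact h1 v w
    · exact h2 v w
  have R0 : ∀ a w, x a * X x c t 1 2 w * (x a)⁻¹ = X x c t 0 2 (a * w) * X x c t 1 2 w := by
    intro a w
    rcases eq_or_ne a 0 with rfl | ha
    · simp [x0, hX0]
    refine spread Es hEs (fun w => x a * X x c t 1 2 w * (x a)⁻¹ = X x c t 0 2 (a * w) * X x c t 1 2 w)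
      (by simp [hX0]) (fun v v' h h' => ?_) ((a ^ 2)⁻¹) (inv_ne_zero (pow_ne_zero 2 ha)) (fun z e he => ?_) w
    · rw [hXadd, mul_add, hXadd,
        show x a * (X x c t 1 2 v * X x c t 1 2 v') * (x a)⁻¹ =
          (x a * X x c t 1 2 v * (x a)⁻¹) * (x a * X x c t 1 2 v' * (x a)⁻¹) by group, h, h']
      calc _ = X x c t 0 2 (a * v) * (X x c t 1 2 v * X x c t 0 2 (a * v')) * X x c t 1 2 v' := by group
        _ = X x c t 0 2 (a * v) * (X x c t 0 2 (a * v') * X x c t 1 2 v) * X x c t 1 2 v' := by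
          rw [show X x c t 1 2 v * X x c t 0 2 (a * v') = X x c t 0 2 (a * v') * X x c t 1 2 v from
            (hT 1 v (a * v')).eq]
        _ = _ := by group
    · obtain ⟨g, hg1, hg2, -, hg3⟩ := hscale (Units.mk0 a ha) z
      have := congrArg (MulAut.conj g) (mul_inv_eq_iff_eq_mul.mp (hr e he))
      simp only [map_mul, map_inv, MulAut.conj_apply] at this
      rw [hg1, hg2, hg3, Units.val_mk0] at this
      rw [← mul_assoc ((a ^ 2)⁻¹), this]
      congr 2
      field_simp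
  have hR0 : ∀ a w, x a * X x c t 1 2 w * (x a)⁻¹ * (X x c t 1 2 w)⁻¹ = X x c t 0 2 (a * w) := fun a w => by
    rw [R0, mul_inv_cancel_right]
  -- the Weyl element on the roots of the triple
  have htX : ∀ v, t * x v * t⁻¹ = X x c t 1 0 (-v) := fun v => by rw [X10, Y, neg_neg]
  have hty : ∀ v, t * y v * t⁻¹ = x (-v) := fun v => by
    simp only [hy, Y]
    rw [show t * (t * x (-v) * t⁻¹) * t⁻¹ = t * t * x (-v) * (t * t)⁻¹ by group, htx]
  have hbmy : ∀ v, b ^ m * y v * (b ^ m)⁻¹ = y (-v) := fun v => by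
    have := hact b 1 0 _ (fun v => by simp only [X10]; exact hby v) m v
    simp only [X10, hm, neg_one_mul] at this
    exact this
  have hbm20 : ∀ v, b ^ m * X x c t 2 0 v * (b ^ m)⁻¹ = X x c t 2 0 (-v) := fun v => by
    have h20 : ∀ v, b * X x c t 2 0 v * b⁻¹ = X x c t 2 0 ((ω : F)⁻¹ * v) := fun v => by
      rw [X20, hshift2, hhback, hbb, inv_inv, hbx', X20]
    have := hact b 2 0 _ h20 m v
    rwa [inv_pow, hm, inv_neg, inv_one, neg_one_mul] at this
  have ht12 : ∀ v, t * X x c t 1 2 v * t⁻¹ = X x c t 0 2 v := fun v => by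
    rw [X12, show t * (c * x v * c⁻¹) * t⁻¹ = (t * c * t⁻¹) * (t * x v * t⁻¹) * (t * c * t⁻¹)⁻¹ by group,
      hR, htX, X10, X02, show c * c * b ^ m * Y x t (-v) * (c * c * b ^ m)⁻¹ =
        c * c * (b ^ m * Y x t (-v) * (b ^ m)⁻¹) * (c * c)⁻¹ by group, ← hy, hbmy, neg_neg]
  have ht02 : ∀ v, t * X x c t 0 2 v * t⁻¹ = X x c t 1 2 (-v) := fun v => by
    rw [X02, show t * (c * c * Y x t v * (c * c)⁻¹) * t⁻¹ =
        (t * c * t⁻¹) * ((t * c * t⁻¹) * (t * Y x t v * t⁻¹) * (t * c * t⁻¹)⁻¹) * (t * c * t⁻¹)⁻¹ by group,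
      hR, ← hy, hty]
    have hbx1 : b ^ m * x (-v) * (b ^ m)⁻¹ = x v := by
      have := hact b 0 1 _ (fun v => by simp only [X01]; exact hbx v) m (-v)
      simp only [X01, inv_pow, hm, inv_neg, inv_one, neg_one_mul, neg_neg] at this
      exact this
    rw [show c * c * b ^ m * (c * c * b ^ m * x (-v) * (c * c * b ^ m)⁻¹) * (c * c * b ^ m)⁻¹ =
      c * c * (b ^ m * (c * c * (b ^ m * x (-v) * (b ^ m)⁻¹) * (c * c)⁻¹) * (b ^ m)⁻¹) * (c * c)⁻¹ by group,
      hbx1, ← X20 x c t v, hbm20, X20, X12]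
    calc _ = (c * c * c) * (c * x (-v) * c⁻¹) * (c * c * c)⁻¹ := by group
      _ = _ := by rw [hc]; group
  have R1 : ∀ a w, X x c t 1 0 a * X x c t 0 2 w * (X x c t 1 0 a)⁻¹ * (X x c t 0 2 w)⁻¹ =
      X x c t 1 2 (a * w) := fun a w => by
    have := congrArg (MulAut.conj t) (hR0 (-a) w)
    simp only [map_mul, map_inv, MulAut.conj_apply] at this
    rw [htX, ht12, ht02, neg_neg, neg_mul, neg_neg] at this
    exact this
  have hcc3 : ∀ {i j l : Fin 3}, i ≠ j → j ≠ l → i ≠ l → ∀ a w,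
      X x c t i j a * X x c t j l w * (X x c t i j a)⁻¹ * (X x c t j l w)⁻¹ = X x c t i l (a * w) →
      X x c t (i + 1) (j + 1) a * X x c t (j + 1) (l + 1) w * (X x c t (i + 1) (j + 1) a)⁻¹ *
        (X x c t (j + 1) (l + 1) w)⁻¹ = X x c t (i + 1) (l + 1) (a * w) := fun hij hjl hil a w h => by
    have := congrArg (MulAut.conj c) h
    simp only [map_mul, map_inv, MulAut.conj_apply] at this
    rwa [hXc hij, hXc hjl, hXc hil] at this
  have triple : ∀ {i j l : Fin 3}, i ≠ j → j ≠ l → i ≠ l → ∀ a w,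
      X x c t i j a * X x c t j l w * (X x c t i j a)⁻¹ * (X x c t j l w)⁻¹ = X x c t i l (a * w) := by
    have a0 : ∀ a w, X x c t 0 1 a * X x c t 1 2 w * (X x c t 0 1 a)⁻¹ * (X x c t 1 2 w)⁻¹ =
        X x c t 0 2 (a * w) := fun a w => by rw [X01]; exact hR0 a w
    have a1 := fun a w => hcc3 (i := 0) (j := 1) (l := 2) (by decide) (by decide) (by decide) a w (a0 a w)
    have a2 := fun a w => hcc3 (i := 1) (j := 2) (l := 0) (by decide) (by decide) (by decide) a w (a1 a w)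
    have b1 := fun a w => hcc3 (i := 1) (j := 0) (l := 2) (by decide) (by decide) (by decide) a w (R1 a w)
    have b2 := fun a w => hcc3 (i := 2) (j := 1) (l := 0) (by decide) (by decide) (by decide) a w (b1 a w)
    intro i j l hij hjl hil a w
    obtain ⟨rfl, rfl, rfl⟩ | ⟨rfl, rfl, rfl⟩ | ⟨rfl, rfl, rfl⟩ | ⟨rfl, rfl, rfl⟩ | ⟨rfl, rfl, rfl⟩ | ⟨rfl, rfl, rfl⟩ :
        (i = 0 ∧ j = 1 ∧ l = 2) ∨ (i = 1 ∧ j = 2 ∧ l = 0) ∨ (i = 2 ∧ j = 0 ∧ l = 1) ∨
          (i = 1 ∧ j = 0 ∧ l = 2) ∨ (i = 2 ∧ j = 1 ∧ l = 0) ∨ (i = 0 ∧ j = 2 ∧ l = 1) := by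
      revert hij hjl hil; revert i j l; decide
    exacts [a0 a w, a1 a w, a2 a w, R1 a w, b1 a w, b2 a w]
  have comm : ∀ {i j k l : Fin 3}, i ≠ j → k ≠ l → i ≠ l → j ≠ k → ∀ v w,
      Commute (X x c t i j v) (X x c t k l w) := by
    intro i j k l hij hkl hil hjk v w
    obtain ⟨rfl, rfl⟩ | ⟨rfl, rfl, rfl⟩ | ⟨rfl, rfl, rfl⟩ | ⟨rfl, rfl, rfl⟩ | ⟨rfl, rfl, rfl⟩ :
        (k = i ∧ l = j) ∨ (k = i ∧ j = i + 1 ∧ l = i + 2) ∨ (k = i ∧ l = i + 1 ∧ j = i + 2) ∨
          (l = j ∧ j = i + 1 ∧ k = i + 2) ∨ (j = l ∧ l = k + 1 ∧ i = k + 2) := by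
      revert hij hkl hil hjk; revert i j k l; decide
    · show _ * _ = _ * _
      rw [← hXadd, ← hXadd, add_comm]
    · exact hS _ v w
    · exact (hS _ w v).symm
    · exact hT _ v w
    · exact (hT _ w v).symm
  have hXt : ∀ {i j : Fin 3} (hij : i ≠ j) (v : F), π (X x c t i j v) = tv hij v := by
    have p01 : ∀ v, π (X x c t 0 1 v) = tv h01 v := fun v => by rw [X01, hπx]; rfl
    have p10 : ∀ v, π (X x c t 1 0 v) = tv h01.symm v := fun v => by
      rw [X10, Y, map_mul, map_mul, map_inv, hπt, hπx, conjT, neg_neg]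
    have step : ∀ {i j : Fin 3} (hij : i ≠ j) (hij' : i + 1 ≠ j + 1),
        (∀ v, π (X x c t i j v) = tv hij v) → ∀ v, π (X x c t (i + 1) (j + 1) v) = tv hij' v :=
      fun hij hij' h v => by rw [← hXc hij, map_mul, map_mul, map_inv, hπc, h, conjC hij hij']
    have p12 := step (i := 0) (j := 1) h01 (by decide) p01
    have p20 := step (i := 1) (j := 2) (by decide) (by decide) p12
    have p21 := step (i := 1) (j := 0) h01.symm (by decide) p10
    have p02 := step (i := 2) (j := 1) (by decide) (by decide) p21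
    intro i j hij v
    fin_cases i <;> fin_cases j
    all_goals first
      | exact absurd rfl hij
      | exact p01 v
      | exact p10 v
      | exact p12 v
      | exact p20 v
      | exact p21 v
      | exact p02 v
  have hgenX : Subgroup.closure {g | ∃ i j v, i ≠ j ∧ g = X x c t i j v} = ⊤ := by
    set N := Subgroup.closure {g | ∃ i j v, i ≠ j ∧ g = X x c t i j v}
    have hN : ∀ {i j : Fin 3}, i ≠ j → ∀ v, X x c t i j v ∈ N := fun {i j} hij v =>
      Subgroup.subset_closure ⟨i, j, v, hij, rfl⟩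
    have hxN : ∀ v, x v ∈ N := fun v => by rw [← X01 x c t v]; exact hN h01 v
    have hyN : ∀ v, y v ∈ N := fun v => by rw [hy, ← X10 x c t v]; exact hN h01.symm v
    have htN : t ∈ N := by rw [hbraid]; exact mul_mem (mul_mem (hxN _) (hyN _)) (hxN _)
    have hhN : h ∈ N := by
      rw [hhdef]; exact mul_mem (mul_mem (mul_mem (hxN _) (hyN _)) (hxN _)) (inv_mem htN)
    have hcN : ∀ g ∈ N, c * g * c⁻¹ ∈ N := by
      intro g hg
      induction hg using Subgroup.closure_induction with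
      | mem g hg =>
        obtain ⟨i, j, v, hij, rfl⟩ := hg
        rw [hXc hij]
        exact hN (fun e => hij (add_right_cancel e)) v
      | one => simp
      | mul g g' _ _ hg hg' =>
        rw [show c * (g * g') * c⁻¹ = (c * g * c⁻¹) * (c * g' * c⁻¹) by group]; exact mul_mem hg hg'
      | inv g _ hg => rw [show c * g⁻¹ * c⁻¹ = (c * g * c⁻¹)⁻¹ by group]; exact inv_mem hg
    have hbN : b ∈ N := hcN h hhN
    have hcN' : c ∈ N := by
      have hn : t * (c * t⁻¹ * c⁻¹) ∈ N := mul_mem htN (hcN _ (inv_mem htN))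
      have hn' : c⁻¹ * (t * (c * t⁻¹ * c⁻¹)) * c ∈ N := by
        rw [hconj]
        exact hcN _ (hcN _ hn)
      have e : c = c⁻¹ * (t * (c * t⁻¹ * c⁻¹)) * c * (b ^ m)⁻¹ := by
        rw [show c⁻¹ * (t * (c * t⁻¹ * c⁻¹)) * c = c⁻¹ * (t * c * t⁻¹) by group, hR]
        group
      rw [e]
      exact mul_mem hn' (inv_mem (pow_mem hbN m))
    rw [eq_top_iff, ← hgen, Subgroup.closure_le]
    rintro g (rfl | rfl | rfl | rfl)
    exacts [hxN 1, hhN, htN, hcN']
  have hSys : CfsgLib.SLPres.Sys (X x c t) π := by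
    refine ⟨fun _ v w => (hXadd _ _ v w).symm, comm, triple, fun {i j} hij v w hv => ?_, hgenX, fun {i j} hij v => ?_⟩
    · obtain ⟨k, hki, hkj⟩ : ∃ k, k ≠ i ∧ k ≠ j := by
        revert hij; revert i j; decide
      exact CfsgLib.SLPres.rankOne_of_third (x := X x c t) (fun _ v w => (hXadd _ _ v w).symm) comm triple hij hki.symm hkj.symm
        v w hv
    · rw [hXt hij]
      exact Matrix.SpecialLinearGroup.transvection_coe hij v
  refine ⟨CfsgLib.SLPres.injective_of_sys 3 hSys (Fintype.card_fin 3), ?_⟩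
  rw [← MonoidHom.range_eq_top, eq_top_iff, ← CfsgLib.SLn.closure_transvections, Subgroup.closure_le]
  rintro _ ⟨i, j, hij, v, rfl⟩
  exact ⟨X x c t i j v, hXt hij v⟩

end CfsgLib.SL3Pres
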