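import Mathlib
set_option autoImplicit false

/-!
Generators of `SL₃(F)`.
-/

namespace CfsgLib.SL3Pres

open Matrix

variable {F : Type*} [Field F]

/-- `diag(ω, ω⁻¹, 1)`. -/
def mH (ω : Fˣ) : Matrix.SpecialLinearGroup (Fin 3) F :=
  ⟨!![(ω : F), 0, 0; 0, (ω : F)⁻¹, 0; 0, 0, 1], by simp [Matrix.det_fin_three]⟩

/-- `diag(1, ω, ω⁻¹)`. -/
def mB (ω : Fˣ) : Matrix.SpecialLinearGroup (Fin 3) F :=
  ⟨!![1, 0, 0; 0, (ω : F), 0; 0, 0, (ω : F)⁻¹], by simp [Matrix.det_fin_three]⟩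

/-- The Weyl element of the first root. -/
def mT (F : Type*) [Field F] : Matrix.SpecialLinearGroup (Fin 3) F :=
  ⟨!![0, 1, 0; -1, 0, 0; 0, 0, 1], by simp [Matrix.det_fin_three]⟩

/-- The cyclic permutation of the basis. -/
def mC (F : Type*) [Field F] : Matrix.SpecialLinearGroup (Fin 3) F :=
  ⟨!![0, 0, 1; 1, 0, 0; 0, 1, 0], by simp [Matrix.det_fin_three]⟩

/-- Transvections of a fixed root. -/
def tv {i j : Fin 3} (h : i ≠ j) (v : F) : Matrix.SpecialLinearGroup (Fin 3) F :=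
  Matrix.SpecialLinearGroup.transvection h v

theorem h01 : (0 : Fin 3) ≠ 1 := by decide

/-- Short notation for the first root subgroup. -/
def e01 (v : F) : Matrix.SpecialLinearGroup (Fin 3) F := tv h01 v

theorem e01_eq (v : F) : e01 v = tv h01 v := rfl

theorem e01_add (a b : F) : e01 (a + b) = e01 a * e01 b := Subtype.ext (by
  rw [Matrix.SpecialLinearGroup.coe_mul]
  simp only [e01, tv, Matrix.SpecialLinearGroup.transvection_coe]
  exact (Matrix.transvection_mul_transvection_same _ _ h01 a b).symm)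

theorem e01_zero : e01 (0 : F) = 1 := left_eq_mul.mp (show e01 (0 : F) = e01 0 * e01 0 by rw [← e01_add, add_zero])

theorem e01_inv (a : F) : (e01 a)⁻¹ = e01 (-a) :=
  inv_eq_of_mul_eq_one_right (by rw [← e01_add, add_neg_cancel, e01_zero])

theorem e01_pow (a : F) (n : ℕ) : e01 a ^ n = e01 ((n : F) * a) := by
  induction n with
  | zero => simp [e01_zero]
  | succ n ih => rw [pow_succ, ih, ← e01_add]; push_cast; ring_nf

/-- The first root subgroup. -/
def rootHom (F : Type*) [Field F] : Multiplicative F →* Matrix.SpecialLinearGroup (Fin 3) F :=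
  MonoidHom.mk' (fun v => e01 v.toAdd) fun a b => e01_add a.toAdd b.toAdd

theorem rootHom_apply (v : F) : rootHom F (.ofAdd v) = e01 v := rfl

theorem tv_apply {i j : Fin 3} (h : i ≠ j) (v : F) (a b : Fin 3) :
    (tv h v).1 a b = (if a = b then 1 else 0) + if i = a ∧ j = b then v else 0 := by
  unfold tv
  rw [Matrix.SpecialLinearGroup.transvection_coe]
  simp [Matrix.single, Matrix.one_apply]

theorem e01_val (v : F) : (e01 v).1 = !![1, v, 0; 0, 1, 0; 0, 0, 1] := by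
  ext i j
  rw [e01_eq, tv_apply]
  fin_cases i <;> fin_cases j <;> simp

theorem rootHom_injective : Function.Injective (rootHom F) := fun a b h => by
  have h' : (e01 a.toAdd).1 0 1 = (e01 b.toAdd).1 0 1 := congrArg (fun M : Matrix.SpecialLinearGroup (Fin 3) F => M.1 0 1) h
  simp [e01_val] at h'
  exact h'

theorem mH_val (ω : Fˣ) : (mH ω).1 = !![(ω : F), 0, 0; 0, (ω : F)⁻¹, 0; 0, 0, 1] := rfl

theorem mB_val (ω : Fˣ) : (mB ω).1 = !![1, 0, 0; 0, (ω : F), 0; 0, 0, (ω : F)⁻¹] := rfl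

theorem mT_val : (mT F).1 = !![0, 1, 0; -1, 0, 0; 0, 0, 1] := rfl

theorem mC_val : (mC F).1 = !![0, 0, 1; 1, 0, 0; 0, 1, 0] := rfl

theorem ext3 {A B : Matrix.SpecialLinearGroup (Fin 3) F} (h : ∀ i j, A.1 i j = B.1 i j) : A = B :=
  Subtype.ext (Matrix.ext h)

theorem mB_eq (ω : Fˣ) : mC F * mH ω * (mC F)⁻¹ = mB ω := by
  rw [mul_inv_eq_iff_eq_mul]
  refine ext3 fun i j => ?_
  fin_cases i <;> fin_cases j <;> simp [Matrix.SpecialLinearGroup.coe_mul, mC_val, mH_val, mB_val, Matrix.mul_apply, Fin.sum_univ_three, Matrix.vecMul, dotProduct]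

theorem conjH (ω : Fˣ) (v : F) : mH ω * e01 v * (mH ω)⁻¹ = e01 ((ω : F) ^ 2 * v) := by
  rw [mul_inv_eq_iff_eq_mul]
  refine ext3 fun i j => ?_
  fin_cases i <;> fin_cases j <;> simp [Matrix.SpecialLinearGroup.coe_mul, mH_val, e01_val, Matrix.mul_apply, Fin.sum_univ_three, Matrix.vecMul, dotProduct]
  field_simp

theorem conjB (ω : Fˣ) (v : F) : mB ω * e01 v * (mB ω)⁻¹ = e01 ((ω : F)⁻¹ * v) := by
  rw [mul_inv_eq_iff_eq_mul]
  refine ext3 fun i j => ?_
  fin_cases i <;> fin_cases j <;> simp [Matrix.SpecialLinearGroup.coe_mul, mB_val, e01_val, Matrix.mul_apply, Fin.sum_univ_three, Matrix.vecMul, dotProduct]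
  field_simp

theorem conjB_pow (ω : Fˣ) (k : ℕ) (v : F) :
    mB ω ^ k * e01 v * (mB ω ^ k)⁻¹ = e01 (((ω : F)⁻¹) ^ k * v) := by
  induction k with
  | zero => simp
  | succ k ih =>
    rw [show mB ω ^ (k + 1) * e01 v * (mB ω ^ (k + 1))⁻¹ = mB ω * (mB ω ^ k * e01 v * (mB ω ^ k)⁻¹) * (mB ω)⁻¹ by
      rw [pow_succ']; group, ih, conjB, pow_succ']
    congr 1; ring

theorem conjTT (v : F) : mT F * mT F * e01 v * (mT F * mT F)⁻¹ = e01 v := by
  rw [mul_inv_eq_iff_eq_mul]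
  refine ext3 fun i j => ?_
  fin_cases i <;> fin_cases j <;> simp [Matrix.SpecialLinearGroup.coe_mul, mT_val, e01_val, Matrix.mul_apply, Fin.sum_univ_three, Matrix.vecMul, dotProduct]

theorem conjT (v : F) : mT F * e01 v * (mT F)⁻¹ = tv h01.symm (-v) := by
  rw [mul_inv_eq_iff_eq_mul]
  refine ext3 fun i j => ?_
  fin_cases i <;> fin_cases j <;> simp [Matrix.SpecialLinearGroup.coe_mul, mT_val, e01_val, tv_apply, Matrix.mul_apply, Fin.sum_univ_three, Matrix.vecMul, dotProduct]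

theorem conjC {i j : Fin 3} (h : i ≠ j) (h' : i + 1 ≠ j + 1) (v : F) :
    mC F * tv h v * (mC F)⁻¹ = tv h' v := by
  rw [mul_inv_eq_iff_eq_mul]
  refine ext3 fun a b => ?_
  fin_cases a <;> fin_cases b <;> fin_cases i <;> fin_cases j <;>
    simp [Matrix.SpecialLinearGroup.coe_mul, mC_val, tv_apply, Matrix.mul_apply, Fin.sum_univ_three, Matrix.vecMul, dotProduct] at h ⊢

theorem hB_comm (ω : Fˣ) : mH ω * mB ω = mB ω * mH ω := by
  refine ext3 fun i j => ?_
  fin_cases i <;> fin_cases j <;> simp [Matrix.SpecialLinearGroup.coe_mul, mH_val, mB_val, Matrix.mul_apply, Fin.sum_univ_three, Matrix.vecMul, dotProduct]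

theorem conjT_B (ω : Fˣ) : (mT F)⁻¹ * mB ω * mT F = mH ω * mB ω := by
  rw [mul_assoc, inv_mul_eq_iff_eq_mul]
  refine ext3 fun i j => ?_
  fin_cases i <;> fin_cases j <;> simp [Matrix.SpecialLinearGroup.coe_mul, mT_val, mH_val, mB_val, Matrix.mul_apply, Fin.sum_univ_three, Matrix.vecMul, dotProduct]

theorem braid : e01 (1 : F) * (mT F * e01 1 * (mT F)⁻¹) * e01 1 = mT F := by
  rw [conjT]
  refine ext3 fun i j => ?_
  fin_cases i <;> fin_cases j <;> simp [Matrix.SpecialLinearGroup.coe_mul, mT_val, e01_val, tv_apply, Matrix.mul_apply, Fin.sum_univ_three, Matrix.vecMul, dotProduct]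

theorem hdef (ω : Fˣ) :
    e01 (ω : F) * (mT F * e01 ((ω : F)⁻¹) * (mT F)⁻¹) * e01 (ω : F) * (mT F)⁻¹ = mH ω := by
  rw [conjT, mul_inv_eq_iff_eq_mul]
  refine ext3 fun i j => ?_
  fin_cases i <;> fin_cases j <;> simp [Matrix.SpecialLinearGroup.coe_mul, mT_val, mH_val, e01_val, tv_apply, Matrix.mul_apply, Fin.sum_univ_three, Matrix.vecMul, dotProduct]

theorem c_cube : mC F * mC F * mC F = 1 := by
  refine ext3 fun i j => ?_
  fin_cases i <;> fin_cases j <;> simp [Matrix.SpecialLinearGroup.coe_mul, mC_val, Matrix.mul_apply, Fin.sum_univ_three, Matrix.vecMul, dotProduct]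

theorem mB_pow (ω : Fˣ) (m : ℕ) : (mB ω ^ m).1 = !![1, 0, 0; 0, ((ω : F)) ^ m, 0; 0, 0, ((ω : F)⁻¹) ^ m] := by
  induction m with
  | zero => ext i j; fin_cases i <;> fin_cases j <;> simp [Matrix.SpecialLinearGroup.coe_mul, Matrix.one_apply]
  | succ m ih =>
    rw [pow_succ, Matrix.SpecialLinearGroup.coe_mul, ih]
    ext i j
    fin_cases i <;> fin_cases j <;> simp [Matrix.SpecialLinearGroup.coe_mul, mB_val, Matrix.mul_apply, Fin.sum_univ_three, Matrix.vecMul, dotProduct, pow_succ]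

theorem conjT_C (ω : Fˣ) (m : ℕ) (hm : (ω : F) ^ m = -1) :
    mT F * mC F * (mT F)⁻¹ = mC F * mC F * mB ω ^ m := by
  rw [mul_inv_eq_iff_eq_mul]
  refine ext3 fun i j => ?_
  simp only [Matrix.SpecialLinearGroup.coe_mul, mB_pow, hm, inv_pow]
  fin_cases i <;> fin_cases j <;> simp [Matrix.SpecialLinearGroup.coe_mul, mC_val, mT_val, Matrix.mul_apply, Fin.sum_univ_three, Matrix.vecMul, dotProduct]

theorem shareSource (a b : F) : Commute (e01 a) (tv (show (0 : Fin 3) ≠ 2 by decide) b) := by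
  refine ext3 fun i j => ?_
  fin_cases i <;> fin_cases j <;> simp [Matrix.SpecialLinearGroup.coe_mul, e01_val, tv_apply, Matrix.mul_apply, Fin.sum_univ_three, Matrix.vecMul, dotProduct]

theorem shareTarget (a b : F) : Commute (e01 a) (tv (show (2 : Fin 3) ≠ 1 by decide) b) := by
  refine ext3 fun i j => ?_
  fin_cases i <;> fin_cases j <;> simp [Matrix.SpecialLinearGroup.coe_mul, e01_val, tv_apply, Matrix.mul_apply, Fin.sum_univ_three, Matrix.vecMul, dotProduct, add_comm]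

theorem triple (a b : F) :
    e01 a * tv (show (1 : Fin 3) ≠ 2 by decide) b * (e01 a)⁻¹ * (tv (show (1 : Fin 3) ≠ 2 by decide) b)⁻¹ =
      tv (show (0 : Fin 3) ≠ 2 by decide) (a * b) := by
  rw [mul_inv_eq_iff_eq_mul, mul_inv_eq_iff_eq_mul]
  refine ext3 fun i j => ?_
  fin_cases i <;> fin_cases j <;> simp [Matrix.SpecialLinearGroup.coe_mul, e01_val, tv_apply, Matrix.mul_apply, Fin.sum_univ_three, Matrix.vecMul, dotProduct]

end CfsgLib.SL3Pres
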